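import Cfsg.Agent.PA.Line

/-! Overgroups of `Alt(M) × E` on `M × Y`: the centraliser of a three-cycle. -/

set_option autoImplicit false
set_option linter.unusedSectionVars false
set_option linter.unusedVariables false
set_option linter.unusedSimpArgs false

namespace Cfsg.Agent.PA

open Equiv Finset

variable {M Y : Type*} [Fintype M] [DecidableEq M] [Fintype Y] [DecidableEq Y]
  {G : Subgroup (Perm (M × Y))} {x : Perm M} {a b c : M}

theorem mv_iff {g : Perm (M × Y)} (h : g * pc x 1 = pc x 1 * g) (p : M × Y) :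
    x (g p).1 = (g p).1 ↔ x p.1 = p.1 := by
  have := congrArg (· p) h
  simp only [Perm.mul_apply] at this
  constructor
  · intro e
    rw [show pc x 1 (g p) = g p from Prod.ext e rfl] at this
    exact (Prod.ext_iff.1 (g.injective this)).1
  · intro e
    rw [show pc x 1 p = p from Prod.ext e rfl] at this
    exact (Prod.ext_iff.1 this).1.symm

variable (G x) in
/-- The elements centralising `x` and preserving its orbits. -/
def KK : Subgroup (Perm (M × Y)) where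
  carrier := {g | g ∈ G ∧ g * pc x 1 = pc x 1 * g ∧ ∀ p : M × Y, x p.1 ≠ p.1 → (g p).2 = p.2}
  mul_mem' := fun {g h} ⟨g1, g2, g3⟩ ⟨h1, h2, h3⟩ => ⟨mul_mem g1 h1,
    (Commute.mul_left g2 h2).eq, fun p hp => by
      rw [Perm.mul_apply, g3 _ (mt (mv_iff h2 p).1 hp), h3 p hp]⟩
  one_mem' := ⟨one_mem _, rfl, fun _ _ => rfl⟩
  inv_mem' := fun {g} ⟨g1, g2, g3⟩ => ⟨inv_mem g1, (Commute.inv_left g2).eq, fun p hp => by
    rw [← g3 (g⁻¹ p) (fun e => hp (by simpa [ai] using (mv_iff g2 (g⁻¹ p)).2 e)), ai]⟩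

variable (G x) in
/-- The elements fixing the support of `x`. -/
def RR : Subgroup (Perm (M × Y)) where
  carrier := {g | g ∈ G ∧ ∀ p : M × Y, x p.1 ≠ p.1 → g p = p}
  mul_mem' := fun {g h} ⟨g1, g3⟩ ⟨h1, h3⟩ => ⟨mul_mem g1 h1, fun p hp => by
    rw [Perm.mul_apply, h3 p hp, g3 p hp]⟩
  one_mem' := ⟨one_mem _, fun _ _ => rfl⟩
  inv_mem' := fun {g} ⟨g1, g3⟩ => ⟨inv_mem g1, fun p hp => by rw [Perm.inv_eq_iff_eq, g3 p hp]⟩

theorem RR.conj {g r : Perm (M × Y)} (hg : g ∈ KK G x) (hr : r ∈ RR G x) : g * r * g⁻¹ ∈ RR G x :=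
  ⟨mul_mem (mul_mem hg.1 hr.1) (inv_mem hg.1), fun p hp => by
    rw [Perm.mul_apply, Perm.mul_apply, hr.2 _ (mt (mv_iff (inv_mem hg).2.1 p).1 hp), ai]⟩

theorem KK.conj {g : Perm (M × Y)} (hg : g ∈ KK G x) {ρ : Perm M} {ζ : Perm Y} (hw : pc ρ ζ ∈ G)
    (h : ρ * x = x * ρ ∨ ρ * x = x⁻¹ * ρ) : pc ρ ζ * g * (pc ρ ζ)⁻¹ ∈ KK G x := by
  refine ⟨mul_mem (mul_mem hw hg.1) (inv_mem hw), ?_, fun p hp => ?_⟩
  · have c := (show Commute g (pc x 1) from hg.2.1).map (MulAut.conj (pc ρ ζ))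
    rw [MulAut.conj_apply, MulAut.conj_apply, pc_inv, pc_mul, pc_mul, mul_one, mul_inv_cancel,
      ← pc_inv] at c
    rcases h with h | h <;> rw [h, mul_inv_cancel_right] at c
    · exact c
    · exact Commute.inv_right_iff.1 (show Commute _ (pc x 1)⁻¹ from c)
  · rw [Perm.mul_apply, Perm.mul_apply, pc_apply, hg.2.2, pc_inv, pc_apply, ai]
    intro e
    have e' := congrArg ρ e
    rw [← Perm.mul_apply, pc_inv, pc_apply] at e'
    rcases h with h | h <;> rw [h, Perm.mul_apply, ai] at e'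
    · exact hp e'
    · exact hp (Perm.inv_eq_iff_eq.1 e').symm

variable (hx : x.IsThreeCycle)
include hx

theorem KK.pow {g : Perm (M × Y)} (hg : g ∈ KK G x) (y : Y) :
    ∃ n : ℕ, ∀ d, x d ≠ d → g (d, y) = ((x ^ n) d, y) := by
  obtain ⟨a, b, c, T⟩ := exists_tri hx
  have ha := T.ne_iff.2 (Or.inl rfl)
  obtain ⟨n, hn⟩ := hx.isCycle.exists_pow_eq ha (mt (mv_iff hg.2.1 (a, y)).1 ha)
  refine ⟨n, fun d hd => ?_⟩
  obtain ⟨i, rfl⟩ := hx.isCycle.exists_pow_eq ha hd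
  have e : ∀ i : ℕ, pc x (1 : Perm Y) ^ i = pc (x ^ i) 1 := fun i => by
    induction i with
    | zero => rfl
    | succ i ih => rw [pow_succ, ih, pc_mul, pow_succ, mul_one]
  have := congrArg (· (a, y)) ((show Commute g (pc x 1) from hg.2.1).pow_right i).eq
  simp only [Perm.mul_apply, e, pc_apply, Perm.one_apply] at this
  rw [this, ← hn, hg.2.2 (a, y) ha, ← Perm.mul_apply, ← Perm.mul_apply, ← pow_add, ← pow_add,
    add_comm]

theorem pow_ne {d : M} (hd : x d ≠ d) (n : ℕ) : x ((x ^ n) d) ≠ (x ^ n) d := by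
  rw [← Perm.mul_apply, ← pow_succ', pow_succ, Perm.mul_apply]
  exact fun e => hd ((x ^ n).injective e)

theorem KK.comm {g k : Perm (M × Y)} (hg : g ∈ KK G x) (hk : k ∈ KK G x) :
    (k * g)⁻¹ * (g * k) ∈ RR G x :=
  ⟨mul_mem (inv_mem (mul_mem hk.1 hg.1)) (mul_mem hg.1 hk.1), fun ⟨d, y⟩ hp => by
    obtain ⟨n, hn⟩ := KK.pow hx hg y
    obtain ⟨m, hm⟩ := KK.pow hx hk y
    rw [Perm.mul_apply, Perm.inv_eq_iff_eq, Perm.mul_apply, Perm.mul_apply, hn d hp, hm d hp,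
      hn _ (pow_ne hx hp m), hm _ (pow_ne hx hp n), ← Perm.mul_apply, ← Perm.mul_apply,
      ← pow_add, ← pow_add, add_comm]⟩

theorem KK.cube {g : Perm (M × Y)} (hg : g ∈ KK G x) : g * (g * g) ∈ RR G x :=
  ⟨mul_mem hg.1 (mul_mem hg.1 hg.1), fun ⟨d, y⟩ hp => by
    obtain ⟨n, hn⟩ := KK.pow hx hg y
    rw [Perm.mul_apply, Perm.mul_apply, hn d hp, hn _ (pow_ne hx hp n),
      hn _ (pow_ne hx (pow_ne hx hp n) n), ← Perm.mul_apply, ← Perm.mul_apply, ← pow_add, ← pow_add,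
      show n + n + n = 3 * n by ring, pow_mul, ← hx.orderOf, pow_orderOf_eq_one, one_pow]
    rfl⟩

variable (G x) in
omit hx in
/-- The elements of `KK` moving `p` inside its orbit under `RR`. -/
def DD (p : M × Y) : Subgroup (Perm (M × Y)) where
  carrier := {k | k ∈ KK G x ∧ ∃ r ∈ RR G x, k p = r p}
  mul_mem' := fun {g h} ⟨g1, r, r1, r2⟩ ⟨h1, s, s1, s2⟩ => ⟨mul_mem g1 h1, g * s * g⁻¹ * r,
    mul_mem (RR.conj g1 s1) r1, by simp only [Perm.mul_apply, s2, ← r2, ia]⟩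
  one_mem' := ⟨one_mem _, 1, one_mem _, rfl⟩
  inv_mem' := fun {g} ⟨g1, r, r1, r2⟩ => ⟨inv_mem g1, g⁻¹ * r⁻¹ * g⁻¹⁻¹,
    RR.conj (inv_mem g1) (inv_mem r1), by simp only [Perm.mul_apply, inv_inv, r2, ia]⟩

theorem DD.conj {p : M × Y} {g k : Perm (M × Y)} (hg : g ∈ KK G x) (hk : k ∈ DD G x p) :
    g⁻¹ * k * g ∈ DD G x p := by
  obtain ⟨k1, r, r1, r2⟩ := hk
  refine ⟨mul_mem (mul_mem (inv_mem hg) k1) hg, _,
    mul_mem (RR.conj k1 (KK.comm hx k1 hg)) r1, ?_⟩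
  simp only [Perm.mul_apply, ← r2, ia, mul_inv_rev, ai]

theorem DD.move {p : M × Y} {g k : Perm (M × Y)} (hg : g ∈ KK G x) (hk : k ∈ DD G x p) :
    k ∈ DD G x (g p) := by
  obtain ⟨-, r, r1, r2⟩ := DD.conj hx hg hk
  refine ⟨hk.1, _, RR.conj hg r1, ?_⟩
  simp only [Perm.mul_apply, ia, ← r2, ai]

namespace St
variable (S : St G)
include S

theorem rr_snd {r : Perm (M × Y)} (hr : r ∈ RR G x) (p : M × Y) : (r p).2 = p.2 := by
  obtain ⟨a, b, c, T⟩ := exists_tri hx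
  exact S.snd_of_fix T.ab hr.1 (fun p hp => hr.2 p (T.ne_iff.2 ((mem_sl.1 hp).imp_right Or.inl))) p

theorem rr_le : RR G x ≤ KK G x := fun r hr => by
  obtain ⟨σ, rfl⟩ := S.eq_pc hr.1 (S.rr_snd hx hr)
  obtain ⟨a, b, c, T⟩ := exists_tri hx
  obtain ⟨y⟩ : Nonempty Y := Fintype.card_pos_iff.1 (by have := S.five; have := S.le_card; omega)
  have k : ∀ d, x d ≠ d → σ d = d := fun d hd => (Prod.ext_iff.1 (hr.2 (d, y) hd)).1
  exact ⟨hr.1, by rw [pc_mul, pc_mul, T.comm (k a (T.ne_iff.2 (by simp))) (k b (T.ne_iff.2 (by simp)))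
    (k c (T.ne_iff.2 (by simp)))], fun _ _ => rfl⟩

theorem not_trans (h : ∀ p : M × Y, x p.1 = p.1 → ∀ y, ∃ g ∈ KK G x, (g p).2 = y) : False := by
  obtain ⟨ζ, z1, z2, z3⟩ := S.fixY
  have cw : ∀ g ∈ KK G x, pc 1 ζ * g * (pc 1 ζ)⁻¹ ∈ KK G x := fun g hg =>
    KK.conj hg z1 (Or.inl rfl)
  let C : M × Y → Subgroup (Perm (M × Y)) := fun p =>
    { carrier := {g | g ∈ KK G x ∧ g⁻¹ * (pc 1 ζ * g * (pc 1 ζ)⁻¹) ∈ DD G x p}
      mul_mem' := fun {g k} ⟨g1, g2⟩ ⟨k1, k2⟩ => ⟨mul_mem g1 k1, by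
        convert mul_mem (DD.conj hx k1 g2) k2 using 1; group⟩
      one_mem' := ⟨one_mem _, by simp⟩
      inv_mem' := fun {g} ⟨g1, g2⟩ => ⟨inv_mem g1, by
        convert inv_mem (DD.conj hx (inv_mem g1) g2) using 1; group⟩ }
  have mem : ∀ p : M × Y, ζ p.2 = p.2 → ∀ g ∈ KK G x, g ∈ C p ↔ ζ (g p).2 = (g p).2 :=
    fun p hp g hg => by
      have e : (pc 1 ζ)⁻¹ p = p := by rw [Perm.inv_eq_iff_eq]; exact Prod.ext rfl hp.symm
      refine ⟨fun ⟨_, _, r, r1, r2⟩ => ?_, fun h => ⟨hg, mul_mem (inv_mem hg) (cw g hg), 1,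
        one_mem _, ?_⟩⟩
      · rw [Perm.mul_apply, Perm.inv_eq_iff_eq, Perm.mul_apply, Perm.mul_apply, e] at r2
        have := S.rr_snd hx (RR.conj hg r1) (g p)
        rw [Perm.mul_apply, Perm.mul_apply, ia, ← r2] at this
        exact this
      · rw [Perm.mul_apply, Perm.inv_eq_iff_eq, Perm.mul_apply, Perm.mul_apply, e]
        exact Prod.ext rfl h
  have mv : ∀ p, ∀ k ∈ KK G x, C (k p) = C p := fun p k hk => Subgroup.ext fun g =>
    and_congr_right fun _ => ⟨fun h => by simpa [ia] using DD.move hx (inv_mem hk) h, DD.move hx hk⟩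
  have ch : ∀ D : Subgroup (Perm (M × Y)), ∃ g, g ∈ KK G x ∧ ((∃ g ∈ KK G x, g ∉ D) → g ∉ D) :=
    fun D => by
      by_cases h : ∃ g ∈ KK G x, g ∉ D
      · exact h.imp fun g hg => ⟨hg.1, fun _ => hg.2⟩
      · exact ⟨1, one_mem _, fun h' => (h h').elim⟩
  choose γ γ1 γ2 using ch
  obtain ⟨y₁, hy₁⟩ : ∃ y, ζ y ≠ y := by
    by_contra hc
    push Not at hc
    exact z2 (Equiv.ext hc)
  let U := univ.filter fun d => x d = d
  let F := U ×ˢ univ.filter fun y => ζ y = y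
  have le := card_le_card_of_injOn (s := F ×ˢ range 3) (t := U ×ˢ (univ : Finset Y))
    (fun q => (γ (C q.1) ^ q.2) q.1) (fun q hq => by
      simp only [U, F, coe_product, Set.mem_prod, mem_coe, mem_product, mem_filter, mem_univ,
        true_and, and_true] at hq ⊢
      exact (mv_iff (pow_mem (γ1 _) _).2.1 _).2 hq.1.1) (fun ⟨p, i⟩ hp ⟨q, j⟩ hq e => by
      simp only [U, F, coe_product, Set.mem_prod, mem_coe, mem_product, mem_filter, mem_univ,
        true_and, mem_range] at hp hq e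
      have e1 : q = ((γ (C q) ^ j)⁻¹ * γ (C p) ^ i) p := by rw [Perm.mul_apply, e, ia]
      have k1 := mul_mem (inv_mem (pow_mem (γ1 (C q)) j)) (pow_mem (γ1 (C p)) i)
      have e2 : C q = C p := by rw [e1, mv p _ k1]
      rw [e2] at e1 k1
      have m1 := (mem p hp.1.2 _ k1).2 (by rw [← e1]; exact hq.1.2)
      have m2 : γ (C p) ∉ C p := γ2 _ (by
        obtain ⟨g, hg, eg⟩ := h p hp.1.1 y₁
        exact ⟨g, hg, fun h => hy₁ (eg ▸ (mem p hp.1.2 g hg).1 h)⟩)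
      have r := KK.cube hx (γ1 (C p))
      have m3 := (mem p hp.1.2 _ (S.rr_le hx r)).2 (by rw [S.rr_snd hx r]; exact hp.1.2)
      generalize γ (C p) = g at e1 m1 m2 m3
      have m4 : g * g ∉ C p := fun h => m2 (by simpa [-mul_inv_rev] using mul_mem m3 (inv_mem h))
      obtain rfl : i = j := by
        obtain ⟨-, hi⟩ := hp
        obtain ⟨-, hj⟩ := hq
        clear e1 e e2 k1
        interval_cases i <;> interval_cases j <;>
          first | rfl | exact (m2 (by simpa [pow_two] using m1)).elim |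
            exact (m4 (by simpa [pow_two, -mul_inv_rev] using m1)).elim
      simpa using e1.symm)
  simp only [F, card_product, card_range, card_univ] at le
  obtain ⟨a, b, c, T⟩ := exists_tri hx
  obtain ⟨u, u1, u2, u3, -⟩ := fresh S.five a b c c
  have : 0 < U.card := card_pos.2 ⟨u, by simpa [U] using T.fx u u1 u2 u3⟩
  nlinarith

/-- An element centralising `x` and preserving its orbits preserves the lines. -/
theorem kk_pc {g : Perm (M × Y)} (hg : g ∈ KK G x) : ∃ σ, g = pc σ 1 := by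
  obtain ⟨a, b, c, T⟩ := exists_tri hx
  have mv : ∀ g ∈ KK G x, ∀ u v, x u = u → x v = v → ∃ k ∈ KK G x, ∃ s : Perm M,
      s u = v ∧ ∀ p : M × Y, k (s p.1, p.2) = pc s 1 (g p) :=
    fun g hg u v hu hv => by
      by_cases e : u = v
      · exact ⟨g, hg, 1, e, fun _ => rfl⟩
      have i := T.inverts hu hv
      have n := fun d => T.ne_iff (d := d)
      refine ⟨_, KK.conj hg (S.alt (swap b c * swap u v) (by simp [T.bc, e])) (Or.inr i),
        swap b c * swap u v, ?_, fun p => ?_⟩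
      · rw [Perm.mul_apply, swap_apply_left, swap_apply_of_ne_of_ne] <;> grind
      · rw [Perm.mul_apply, Perm.mul_apply]
        exact congrArg _ (congrArg g (ia (pc (swap b c * swap u v) 1) p))
  obtain ⟨u₀, u1, u2, u3, -⟩ := fresh S.five a b c c
  have u4 := T.fx u₀ u1 u2 u3
  have mv' : ∀ {y y'}, (∃ g ∈ KK G x, ∃ u, x u = u ∧ (g (u, y)).2 = y') → ∀ v, x v = v →
      ∃ k ∈ KK G x, (k (v, y)).2 = y' := fun {y y'} ⟨g, hg, u, hu, e⟩ v hv => by
    obtain ⟨k, hk, s, s2, s3⟩ := mv g hg u v hu hv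
    exact ⟨k, hk, by rw [← s2, s3 (u, y), ← e]; rfl⟩
  rcases S.primY' a b c (r := fun y y' => ∃ g ∈ KK G x, ∃ u, x u = u ∧ (g (u, y)).2 = y')
    ⟨fun y => ⟨1, one_mem _, u₀, u4, rfl⟩, fun {y y'} ⟨g, hg, u, hu, e⟩ => ⟨g⁻¹, inv_mem hg, _,
      (mv_iff hg.2.1 (u, y)).2 hu, by rw [← e, ia]⟩, fun {y y' y''} ⟨g, hg, u, hu, e⟩ h => by
      obtain ⟨k, hk, e'⟩ := mv' h _ ((mv_iff hg.2.1 (u, y)).2 hu)
      exact ⟨k * g, mul_mem hk hg, u, hu, by rw [← e', ← e]; rfl⟩⟩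
    (fun ρ ζ hw e1 e2 e3 y y' ⟨g, hg, u, hu, e⟩ => ⟨_, KK.conj hg hw (Or.inl (T.comm e1 e2 e3)),
      ρ u, by rw [← Perm.mul_apply, ← T.comm e1 e2 e3, Perm.mul_apply, hu], by
      rw [Perm.mul_apply, Perm.mul_apply, show (ρ u, ζ y) = pc ρ ζ (u, y) from rfl, ia, ← e]
      rfl⟩) with h1 | h1
  · refine S.eq_pc hg.1 fun p => ?_
    by_cases hp : x p.1 = p.1
    · exact (h1 _ _ ⟨g, hg, p.1, hp, rfl⟩).symm
    · exact hg.2.2 p hp
  · exact (S.not_trans hx fun p hp y => mv' (h1 p.2 y) _ hp).elim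

end St

end Cfsg.Agent.PA
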