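import Cfsg.Agent.PA.Cent

/-! Overgroups of the product action: transport to function spaces. -/

set_option autoImplicit false
set_option linter.unusedSectionVars false
set_option linter.unusedVariables false
set_option linter.unusedSimpArgs false

namespace Cfsg.Agent.PA

open Equiv Finset
open Function hiding swap
open scoped Pointwise

variable {ι M : Type*} [Fintype ι] [DecidableEq ι] [Fintype M] [DecidableEq M]
  {G : Subgroup (Perm (ι → M))}

/-- The base group. -/
def bs : (ι → Perm M) →* Perm (ι → M) where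
  toFun τ := Equiv.piCongrRight τ
  map_one' := rfl
  map_mul' _ _ := rfl

@[simp] theorem bs_apply (τ : ι → Perm M) (f : ι → M) (i : ι) : bs τ f i = τ i (f i) := rfl

/-- One factor of the base group. -/
def co (i : ι) : Perm M →* Perm (ι → M) := bs.comp (MonoidHom.mulSingle (fun _ => Perm M) i)

theorem co_apply (i : ι) (σ : Perm M) (f : ι → M) : co i σ f = update f i (σ (f i)) := by
  ext l
  by_cases h : l = i <;> simp [co, h]

@[simp] theorem co_same (i : ι) (σ : Perm M) (f : ι → M) : co i σ f i = σ (f i) := by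
  simp [co_apply]

theorem co_ne {i l : ι} (h : l ≠ i) (σ : Perm M) (f : ι → M) : co i σ f l = f l := by
  simp [co_apply, h]

theorem co_eq_iff {i : ι} {σ : Perm M} {f : ι → M} : co i σ f = f ↔ σ (f i) = f i := by
  rw [co_apply, update_eq_self_iff]

theorem bs_mem {τ : ι → Perm M} (h : ∀ i, co i (τ i) ∈ G) : bs τ ∈ G :=
  Subgroup.pi_mem_of_mulSingle_mem (H := G.comap bs) τ h

/-- Lying on a common line in direction `i`. -/
def ln (i : ι) (f g : ι → M) : Prop := ∀ l, l ≠ i → f l = g l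

theorem ln.refl (i : ι) (f : ι → M) : ln i f f := fun _ _ => rfl

theorem ln.symm {i : ι} {f g : ι → M} (h : ln i f g) : ln i g f := fun l hl => (h l hl).symm

theorem ln.trans {i : ι} {f g k : ι → M} (h : ln i f g) (h' : ln i g k) : ln i f k :=
  fun l hl => (h l hl).trans (h' l hl)

theorem ln.eq {i : ι} {f g : ι → M} (h : ln i f g) : g = update f i (g i) := by
  ext l
  by_cases e : l = i
  · simp [e]
  · simp [e, h l e]

theorem ln_update (i : ι) (f : ι → M) (c : M) : ln i f (update f i c) := fun l h => by simp [h]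

theorem ln_co (i : ι) (σ : Perm M) (f : ι → M) : ln i f (co i σ f) := fun l h => (co_ne h σ f).symm

theorem conn {r : (ι → M) → (ι → M) → Prop} (hr : Equivalence r) {f g : ι → M}
    (h : ∀ j, f j ≠ g j → ∀ k c, r k (update k j c)) : r f g := by
  have : ∀ s : Finset ι, r f (s.piecewise g f) := fun s => by
    induction s using Finset.induction_on with
    | empty => simpa using hr.refl f
    | insert j s hj ih =>
      rw [piecewise_insert]
      by_cases e : f j = g j
      · rwa [← e, ← piecewise_eq_of_notMem s g f hj, update_eq_self]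
      · exact hr.trans ih (h j e _ _)
  simpa using this univ

theorem line_of_rel (h5 : 5 ≤ Fintype.card M) {r : (ι → M) → (ι → M) → Prop} (hr : Equivalence r)
    (h : ∀ j (σ : Perm M), σ.sign = 1 → ∀ f g, r f g → r (co j σ f) (co j σ g)) {f g : ι → M}
    (hfg : r f g) {j : ι} (hj : f j ≠ g j) (k : ι → M) (c : M) : r k (update k j c) := by
  have k1 : ∀ c, c ≠ g j → r f (update f j c) := fun c hc => by
    obtain ⟨σ, s0, s1, -, s2⟩ := alt_fix h5 hj hj hc hc
    have := h j σ s0 _ _ hfg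
    rw [co_eq_iff.2 s1, co_apply, s2] at this
    exact hr.trans hfg (hr.symm this)
  have k2 : ∀ c, r f (update f j c) := fun c => by
    by_cases e : c = f j
    · rw [e, update_eq_self]; exact hr.refl f
    obtain ⟨d, d1, d2, -⟩ := fresh h5 (f j) (g j) c c
    obtain ⟨σ, s0, s1, -, s2⟩ := alt_fix h5 d1 d1 e e
    have := h j σ s0 _ _ (k1 d d2)
    rwa [co_eq_iff.2 s1, co_apply, update_self, s2, update_idem] at this
  let H : Subgroup (Perm (ι → M)) :=
    { carrier := {w | ∀ f g, r (w f) (w g) ↔ r f g}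
      mul_mem' := fun a b f g => (a _ _).trans (b _ _)
      one_mem' := fun _ _ => Iff.rfl
      inv_mem' := fun {w} a f g => by rw [← a, ai, ai] }
  choose τ t1 t2 using fun l => even_ext h5 (swap (f l) (k l)) (f l) (f l) (f l)
  have m : bs τ ∈ H := bs_mem fun l f g => ⟨fun e => by
    simpa only [map_inv, ia] using h l (τ l)⁻¹ (by simp [t1]) _ _ e, h l _ (t1 l) f g⟩
  have := (m _ _).2 (k2 ((τ j)⁻¹ c))
  convert this using 1
  · ext l; simp [(t2 l).1]
  · ext l
    by_cases e : l = j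
    · simp [e]
    · simp [e, (t2 l).1]

/-- Splitting off one coordinate. -/
def tr (i : ι) : Perm (M × ({j // j ≠ i} → M)) ≃* Perm (ι → M) :=
  (Equiv.funSplitAt i M).symm.permCongrHom

theorem tr_apply (i : ι) (g : Perm (M × ({j // j ≠ i} → M))) (f : ι → M) :
    tr i g f = (Equiv.funSplitAt i M).symm (g (f i, fun j => f j)) := rfl

theorem tr_symm_apply (i : ι) (g : Perm (ι → M)) (f : ι → M) :
    (tr i).symm g (Equiv.funSplitAt i M f) = (g f i, fun j => g f j.1) := by
  change Equiv.funSplitAt i M (g ((Equiv.funSplitAt i M).symm (Equiv.funSplitAt i M f))) = _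
  rw [symm_apply_apply]; rfl

theorem sp_apply (i : ι) (f : ι → M) : Equiv.funSplitAt i M f = (f i, fun j => f j.1) := rfl

theorem tr_pc (i : ι) (σ : Perm M) : tr i (pc σ 1) = co i σ := by
  ext f l
  by_cases h : l = i
  · subst h; simp [tr_apply]
  · simp [tr_apply, h, co_ne h]

theorem tr_pc' {i j : ι} (h : j ≠ i) (σ : Perm M) :
    tr i (pc 1 (co (⟨j, h⟩ : {j // j ≠ i}) σ)) = co j σ := by
  ext f l
  by_cases e : l = i
  · subst e; simp [tr_apply, co_ne h.symm]
  by_cases e' : l = j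
  · subst e'; simp [tr_apply, e]
  · simp [tr_apply, e, co_ne e', co_ne (show (⟨l, e⟩ : {j // j ≠ i}) ≠ ⟨j, h⟩ by simpa using e')]

theorem card_support_tr (i : ι) (g : Perm (M × ({j // j ≠ i} → M))) :
    (tr i g).support.card = g.support.card := by
  refine (card_equiv (Equiv.funSplitAt i M) fun f => ?_)
  rw [Perm.mem_support, Perm.mem_support, tr_apply, ne_eq, symm_apply_eq]; rfl

theorem card_rest (i : ι) :
    Fintype.card ({j // j ≠ i} → M) = Fintype.card M ^ (Fintype.card ι - 1) := by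
  simp [Fintype.card_subtype_compl]

theorem card_support_co (i : ι) (σ : Perm M) :
    (co i σ).support.card = σ.support.card * Fintype.card M ^ (Fintype.card ι - 1) := by
  rw [← tr_pc, card_support_tr, support_pc, card_product, card_univ, card_rest]

theorem exists_pc {Y : Type*} [Fintype Y] [DecidableEq Y] (p₀ : M × Y) {g : Perm (M × Y)}
    (h1 : ∀ p q : M × Y, p.1 = q.1 → (g p).1 = (g q).1)
    (h2 : ∀ p q : M × Y, p.2 = q.2 → (g p).2 = (g q).2) : ∃ ρ ζ, g = pc ρ ζ :=
  ⟨Equiv.ofBijective (fun c => (g (c, p₀.2)).1) (Finite.injective_iff_bijective.1 fun c d e =>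
    (Prod.ext_iff.1 (g.injective (Prod.ext e (h2 _ _ rfl)) : (c, p₀.2) = (d, p₀.2))).1),
    Equiv.ofBijective (fun y => (g (p₀.1, y)).2) (Finite.injective_iff_bijective.1 fun y y' e =>
    (Prod.ext_iff.1 (g.injective (Prod.ext (h1 _ _ rfl) e) : (p₀.1, y) = (p₀.1, y'))).2),
    Equiv.ext fun p => Prod.ext (h1 _ _ rfl) (h2 _ _ rfl)⟩

variable (G) in
/-- The standing hypotheses on an overgroup. -/
structure Hy : Prop where
  five : 5 ≤ Fintype.card M
  two : 2 ≤ Fintype.card ι
  alt : ∀ i (σ : Perm M), σ.sign = 1 → co i σ ∈ G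
  sw : ∀ i j, ∃ w ∈ G, ∃ τ : ι → Perm M, ∀ f l, w f l = τ l (f (swap i j l))
  no : ¬ alternatingGroup (ι → M) ≤ G

theorem sw_update {w : Perm (ι → M)} {τ : ι → Perm M} {i j : ι}
    (h : ∀ f l, w f l = τ l (f (swap i j l))) (f : ι → M) (c : M) :
    w (update (w⁻¹ f) i ((τ j)⁻¹ c)) = update f j c := by
  ext l
  rw [h]
  by_cases e : l = j
  · simp [e]
  · rw [update_of_ne (by rwa [ne_eq, swap_apply_eq_iff, swap_apply_left]), ← h, ai, update_of_ne e]

namespace Hy
variable (H : Hy G)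
include H

theorem prim {r : (ι → M) → (ι → M) → Prop} (hr : Equivalence r)
    (h : ∀ g ∈ G, ∀ p q, r p q → r (g p) (g q)) : (∀ p q, r p q → p = q) ∨ ∀ p q, r p q := by
  refine or_iff_not_imp_left.2 fun hn p q => conn hr fun j _ k c => ?_
  push Not at hn
  obtain ⟨f, g, h1, h2⟩ := hn
  obtain ⟨i, hi⟩ := Function.ne_iff.1 h2
  obtain ⟨w, hw, τ, e⟩ := H.sw i j
  have := h w hw _ _ (line_of_rel H.five hr (fun j σ s => h _ (H.alt j σ s)) h1 hi (w⁻¹ k)
    ((τ j)⁻¹ c))
  rwa [sw_update e, ai] at this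

theorem no3 {w : Perm (ι → M)} (hw : w ∈ G) (h : w.support.card ≤ 3) : w = 1 := by
  have h5 := H.five
  have h2 := H.two
  obtain ⟨i⟩ : Nonempty ι := Fintype.card_pos_iff.1 (by omega)
  have t : MulAction.IsPretransitive G (ι → M) := ⟨fun p q => by
    rcases H.prim (r := fun p q => ∃ g ∈ G, g p = q) ⟨fun p => ⟨1, one_mem _, rfl⟩,
      fun ⟨g, hg, e⟩ => ⟨g⁻¹, inv_mem hg, by rw [← e, ia]⟩,
      fun ⟨g, hg, e⟩ ⟨g', hg', e'⟩ => ⟨g' * g, mul_mem hg' hg, by rw [← e', ← e]; rfl⟩⟩
      (fun g hg p q ⟨k, hk, e⟩ => ⟨g * k * g⁻¹, mul_mem (mul_mem hg hk) (inv_mem hg), by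
        rw [Perm.mul_apply, Perm.mul_apply, ia, e]⟩) with h1 | h1
    · obtain ⟨c, c1, -⟩ := fresh h5 (p i) (p i) (p i) (p i)
      obtain ⟨σ, s0, s1, -⟩ := even_ext h5 (swap (p i) c) (p i) (p i) (p i)
      have := congrFun (h1 _ _ ⟨_, H.alt i σ s0, rfl⟩ : p = _) i
      exact (c1 (by simpa [s1] using this.symm)).elim
    · obtain ⟨g, hg, e⟩ := h1 p q
      exact ⟨⟨g, hg⟩, e⟩⟩
  have pr : MulAction.IsPreprimitive G (ι → M) := ⟨fun {B} hB => by
    have key : ∀ (g k : G) p, p ∈ g • B → p ∈ k • B → g • B = k • B := fun g k p h1 h2 =>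
      hB.smul_eq_smul_of_nonempty ⟨p, h1, h2⟩
    obtain rfl | ⟨b, hb⟩ := B.eq_empty_or_nonempty
    · exact Or.inl Set.subsingleton_empty
    rcases H.prim (r := fun p q => ∃ g : G, p ∈ g • B ∧ q ∈ g • B) ⟨fun p => by
        obtain ⟨g, rfl⟩ := t.exists_smul_eq b p
        exact ⟨g, Set.smul_mem_smul_set hb, Set.smul_mem_smul_set hb⟩,
      fun ⟨g, a, b⟩ => ⟨g, b, a⟩, fun ⟨g, a, b⟩ ⟨k, c, d⟩ => ⟨k, key g k _ b c ▸ a, d⟩⟩
      (fun g hg p q ⟨k, a, b⟩ => ⟨⟨g, hg⟩ * k, by rw [mul_smul]; exact Set.smul_mem_smul_set a,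
        by rw [mul_smul]; exact Set.smul_mem_smul_set b⟩) with h1 | h1
    · exact Or.inl fun p hp q hq => h1 p q ⟨1, by simpa using hp, by simpa using hq⟩
    · refine Or.inr (Set.eq_univ_of_forall fun p => ?_)
      obtain ⟨g, a, c⟩ := h1 b p
      rwa [key g 1 b a (by simpa using hb), one_smul] at c⟩
  by_contra h1
  have := Perm.two_le_card_support_of_ne_one h1
  obtain h3 | h3 : w.support.card = 2 ∨ w.support.card = 3 := by omega
  · exact H.no (Perm.subgroup_eq_top_of_isPreprimitive_of_isSwap_mem pr w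
      (Perm.card_support_eq_two.1 h3) hw ▸ le_top)
  · exact H.no (Perm.alternatingGroup_le_of_isPreprimitive_of_isThreeCycle_mem pr
      (card_support_eq_three_iff.1 h3) hw)

theorem st (i : ι) : St (G.comap (tr (M := M) i).toMonoidHom) := by
  have h5 := H.five
  have h2 := H.two
  obtain ⟨a⟩ : Nonempty M := Fintype.card_pos_iff.1 (by omega)
  obtain ⟨j, hj⟩ := Fintype.exists_ne_of_one_lt_card (by omega) i
  have mem : ∀ g, g ∈ G.comap (tr (M := M) i).toMonoidHom ↔ tr i g ∈ G := fun _ => Iff.rfl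
  have m1 : ∀ (l : {l // l ≠ i}) (σ : Perm M), σ.sign = 1 →
      pc 1 (co l σ) ∈ G.comap (tr (M := M) i).toMonoidHom := fun l σ s => by
    rw [mem, tr_pc' l.2]; exact H.alt _ σ s
  refine ⟨h5, fun σ s => by rw [mem, tr_pc]; exact H.alt i σ s, fun w hw h => (tr i).injective
    (by rw [map_one]; exact H.no3 hw (by rwa [card_support_tr])), fun r hr h => ?_,
    fun r hr h => ?_, ?_, ?_⟩
  · refine (H.prim (r := fun f g => r (Equiv.funSplitAt i M f) (Equiv.funSplitAt i M g))
      (hr.comap _) fun g hg p q e => ?_).imp (fun h p q e => ?_) fun h p q => ?_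
    · have := h ((tr i).symm g) (by rw [mem]; simpa using hg) _ _ e
      rwa [tr_symm_apply, tr_symm_apply] at this
    · simpa using h ((Equiv.funSplitAt i M).symm p) ((Equiv.funSplitAt i M).symm q) (by simpa using e)
    · simpa using h ((Equiv.funSplitAt i M).symm p) ((Equiv.funSplitAt i M).symm q)
  · refine or_iff_not_imp_left.2 fun hn p q => conn hr fun l _ k c => ?_
    push Not at hn
    obtain ⟨f, g, h1, h3⟩ := hn
    obtain ⟨n, hn⟩ := Function.ne_iff.1 h3
    obtain ⟨w, hw, τ, e⟩ := H.sw n l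
    have s : swap n.1 l.1 i = i := swap_apply_of_ne_of_ne n.2.symm l.2.symm
    have s' : ∀ u : {l // l ≠ i}, swap n.1 l.1 u = (swap n l u).1 := fun u =>
      (Subtype.val_injective.map_swap n l u).symm
    obtain ⟨ρ, ζ, e'⟩ := exists_pc (a, f) (g := (tr i).symm w) (fun p q h => by
        rw [← (Equiv.funSplitAt i M).apply_symm_apply p, ← (Equiv.funSplitAt i M).apply_symm_apply q,
          tr_symm_apply, tr_symm_apply]
        simp [e, s, h]) fun p q h => by
        rw [← (Equiv.funSplitAt i M).apply_symm_apply p, ← (Equiv.funSplitAt i M).apply_symm_apply q,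
          tr_symm_apply, tr_symm_apply]
        ext u
        simp [e, s', (swap n l u).2, h]
    have e2 : ∀ y u, ζ y u = τ u (y (swap n l u)) := fun y u => by
      have := tr_symm_apply i w ((Equiv.funSplitAt i M).symm (a, y))
      rw [apply_symm_apply, e'] at this
      simpa [e, s', (swap n l u).2] using congrFun (Prod.ext_iff.1 this).2 u
    have := h ρ ζ (by rw [mem, ← e']; simpa using hw) _ _ (line_of_rel h5 hr
      (fun j σ s => h 1 _ (m1 j σ s)) h1 hn (ζ⁻¹ k) ((τ l)⁻¹ c))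
    rwa [sw_update (τ := fun u : {l // l ≠ i} => τ u.1) e2, ai] at this
  · rw [card_rest]
    by_cases h3 : Fintype.card ι = 2
    · refine Or.inl ⟨by simp [h3], fun y y' y'' n1 n2 => ?_⟩
      have u : ∀ l : {l // l ≠ i}, l = ⟨j, hj⟩ := fun l => Fintype.card_le_one_iff.1
        (by simp [Fintype.card_subtype_compl, h3] : Fintype.card {l // l ≠ i} ≤ 1) l _
      have ne : ∀ {y y' : {l // l ≠ i} → M}, y' ≠ y → y' ⟨j, hj⟩ ≠ y ⟨j, hj⟩ := fun h e =>
        h (funext fun l => by rw [u l, e])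
      obtain ⟨σ, s0, s1, -, s2⟩ := alt_fix h5 (ne n1) (ne n1) (ne n2) (ne n2)
      exact ⟨_, m1 ⟨j, hj⟩ σ s0, co_eq_iff.2 s1, funext fun l => by rw [u l, co_same, s2]⟩
    · right
      obtain ⟨n, hn⟩ : ∃ n, Fintype.card ι - 1 = n + 2 := ⟨Fintype.card ι - 3, by omega⟩
      have := Nat.one_le_pow n (Fintype.card M) (by omega)
      rw [hn, pow_add]
      nlinarith
  · obtain ⟨x, hx, -⟩ := exists_three h5 a a
    have c := card_support_co (⟨j, hj⟩ : {l // l ≠ i}) x
    have c' := card_filter_add_card_filter_not (s := (univ : Finset ({l // l ≠ i} → M)))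
      (fun y => co (⟨j, hj⟩ : {l // l ≠ i}) x y = y)
    have p := Nat.one_le_pow (Fintype.card {l // l ≠ i} - 1) (Fintype.card M) (by omega)
    have : Fintype.card ({l // l ≠ i} → M) =
        Fintype.card M * Fintype.card M ^ (Fintype.card {l // l ≠ i} - 1) := by
      rw [Fintype.card_fun, ← pow_succ', Nat.sub_add_cancel (Fintype.card_pos_iff.2 ⟨⟨j, hj⟩⟩)]
    rw [hx.card_support] at c
    refine ⟨_, m1 ⟨j, hj⟩ x hx.sign, fun h => by
      rw [h, Perm.support_one, card_empty] at c; omega, ?_⟩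
    rw [card_univ, show (univ.filter fun y => ¬ co (⟨j, hj⟩ : {l // l ≠ i}) x y = y) =
      (co (⟨j, hj⟩ : {l // l ≠ i}) x).support from rfl, c] at c'
    nlinarith

theorem back {i : ι} {g : Perm (ι → M)} (h : ∃ σ, (tr i).symm g = pc σ 1) : ∃ σ, g = co i σ :=
  h.imp fun σ e => by rw [← tr_pc, ← e, MulEquiv.apply_symm_apply]

theorem mem' (i : ι) {g : Perm (ι → M)} (hg : g ∈ G) :
    (tr i).symm g ∈ G.comap (tr (M := M) i).toMonoidHom := by
  change tr i _ ∈ G
  simpa using hg

theorem eq_co_of_fix {i : ι} {a b : M} (hab : a ≠ b) {g : Perm (ι → M)} (hg : g ∈ G)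
    (h : ∀ f, f i = a ∨ f i = b → g f = f) : ∃ σ, g = co i σ :=
  H.back ((H.st i).eq_pc_of_fix hab (H.mem' i hg) fun p hp => by
    obtain ⟨f, rfl⟩ := (Equiv.funSplitAt i M).surjective p
    rw [tr_symm_apply, h f hp]; rfl)

theorem eq_co_of_cent {i : ι} {x : Perm M} (hx : x.IsThreeCycle) {g : Perm (ι → M)} (hg : g ∈ G)
    (h1 : g * co i x = co i x * g) (h2 : ∀ f, x (f i) ≠ f i → ln i (g f) f) : ∃ σ, g = co i σ :=
  H.back ((H.st i).kk_pc hx ⟨H.mem' i hg, (tr i).injective (by simpa [tr_pc] using h1), fun p hp => by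
    obtain ⟨f, rfl⟩ := (Equiv.funSplitAt i M).surjective p
    rw [tr_symm_apply]
    exact funext fun l => h2 f hp l l.2⟩)

theorem of_lines {i : ι} {g : Perm (ι → M)} (hg : g ∈ G) (h : ∀ f f', ln i f f' → ln i (g f) (g f'))
    (h3 : g ^ 3 = 1) (hs : g.support.card = 3 * Fintype.card M ^ (Fintype.card ι - 1)) :
    (∃ ρ : Perm M, ρ.IsThreeCycle ∧ g = co i ρ) ∨ ∀ σ, Commute g (co i σ) := by
  refine ((H.st i).of_lines (H.mem' i hg) (fun p q e => ?_) (by rw [← map_pow, h3, map_one])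
    (by rw [← card_support_tr, MulEquiv.apply_symm_apply, hs, card_rest])).imp
    (fun ⟨ρ, a, e⟩ => ⟨ρ, a, by rw [← tr_pc, ← e, MulEquiv.apply_symm_apply]⟩) fun ⟨ζ, e⟩ σ => ?_
  · obtain ⟨f, rfl⟩ := (Equiv.funSplitAt i M).surjective p
    obtain ⟨f', rfl⟩ := (Equiv.funSplitAt i M).surjective q
    rw [tr_symm_apply, tr_symm_apply]
    exact funext fun l => h f f' (fun l hl => congrFun e ⟨l, hl⟩) l l.2
  · rw [← tr_pc, ← (tr i).apply_symm_apply g, e]
    exact Commute.map (show Commute (pc 1 ζ) (pc σ 1) from rfl) _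

end Hy

end Cfsg.Agent.PA
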