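import Mathlib

/-! Jordan complements of a permutation group: transitivity, small supports and blocks. -/

set_option autoImplicit false
set_option linter.unusedSectionVars false
set_option linter.unusedVariables false
set_option linter.unusedSimpArgs false

namespace Cfsg.Agent.PA

open Equiv Finset

variable {Ω : Type*} [Fintype Ω] [DecidableEq Ω] {G : Subgroup (Perm Ω)}

theorem ai {α : Type*} (g : Perm α) (x : α) : g (g⁻¹ x) = x := g.apply_symm_apply x

theorem ia {α : Type*} (g : Perm α) (x : α) : g⁻¹ (g x) = x := g.symm_apply_apply x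

variable (G) in
/-- The pointwise stabiliser of `X` is transitive outside `X`. -/
def JC (X : Finset Ω) : Prop := ∀ p ∉ X, ∀ q ∉ X, ∃ g ∈ G, (∀ r ∈ X, g r = r) ∧ g p = q

theorem mem_image_perm {g : Perm Ω} {X : Finset Ω} {p : Ω} : p ∈ X.image g ↔ g⁻¹ p ∈ X := by
  rw [mem_image]
  exact ⟨fun ⟨a, ha, e⟩ => by rw [← e]; simpa using ha, fun h => ⟨_, h, by simp⟩⟩

theorem card_image_perm (g : Perm Ω) (X : Finset Ω) : (X.image g).card = X.card :=
  card_image_of_injective _ g.injective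

theorem JC.image {X : Finset Ω} (h : JC G X) {g : Perm Ω} (hg : g ∈ G) : JC G (X.image g) :=
  fun p hp q hq => by
    rw [mem_image_perm] at hp hq
    obtain ⟨k, hk, h1, h2⟩ := h _ hp _ hq
    refine ⟨g * k * g⁻¹, mul_mem (mul_mem hg hk) (inv_mem hg), fun r hr => ?_,
      by rw [Perm.mul_apply, Perm.mul_apply, h2, ai]⟩
    rw [mem_image_perm] at hr
    rw [Perm.mul_apply, Perm.mul_apply, h1 _ hr, ai]

theorem JC.inter {X X' : Finset Ω} (h : JC G X) (h' : JC G X') {r : Ω} (hr : r ∉ X)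
    (hr' : r ∉ X') : JC G (X ∩ X') := by
  have key : ∀ p ∉ X ∩ X', ∃ g ∈ G, (∀ r ∈ X ∩ X', g r = r) ∧ g p = r := fun p hp => by
    by_cases hX : p ∈ X
    · obtain ⟨g, hg, h1, h2⟩ := h' p (fun h => hp (mem_inter.2 ⟨hX, h⟩)) r hr'
      exact ⟨g, hg, fun r hr => h1 r (mem_inter.1 hr).2, h2⟩
    · obtain ⟨g, hg, h1, h2⟩ := h p hX r hr
      exact ⟨g, hg, fun r hr => h1 r (mem_inter.1 hr).1, h2⟩
  intro p hp q hq
  obtain ⟨g, hg, h1, h2⟩ := key p hp
  obtain ⟨g', hg', h1', h2'⟩ := key q hq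
  refine ⟨g'⁻¹ * g, mul_mem (inv_mem hg') hg, fun r hr => ?_, ?_⟩
  · rw [Perm.mul_apply, h1 r hr, Perm.inv_eq_iff_eq, h1' r hr]
  · rw [Perm.mul_apply, h2, Perm.inv_eq_iff_eq, h2']

variable {t : ℕ}

theorem ext_tuple (h : ∀ Z : Finset Ω, Z.card < t → JC G Z) (φ : Perm Ω) (Z : Finset Ω)
    (hZ : Z.card ≤ t) : ∃ g ∈ G, ∀ z ∈ Z, g z = φ z := by
  induction Z using Finset.induction_on with
  | empty => exact ⟨1, one_mem _, by simp⟩
  | insert a Z ha ih =>
    rw [card_insert_of_notMem ha] at hZ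
    obtain ⟨g, hg, h1⟩ := ih (by omega)
    obtain ⟨k, hk, h2, h3⟩ := h (Z.image φ) (by rw [card_image_perm]; omega) (g a) (fun h => by
      obtain ⟨b, hb, e⟩ := mem_image.1 h
      exact ha (g.injective ((h1 b hb).trans e) ▸ hb)) (φ a) (by
        rw [mem_image_perm]; simpa using ha)
    refine ⟨k * g, mul_mem hk hg, fun z hz => ?_⟩
    rcases mem_insert.1 hz with rfl | hz
    · exact h3
    · rw [Perm.mul_apply, h1 z hz, h2 _ (mem_image_of_mem _ hz)]

theorem move_set (h : ∀ Z : Finset Ω, Z.card < t → JC G Z) {Z Z' : Finset Ω} (hZ : Z.card ≤ t)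
    (e : Z.card = Z'.card) : ∃ g ∈ G, Z.image g = Z' := by
  obtain ⟨φ, hφ⟩ := Perm.exists_map_finset_eq Z Z' e
  obtain ⟨g, hg, h1⟩ := ext_tuple h φ Z hZ
  refine ⟨g, hg, ?_⟩
  rw [← hφ, map_eq_image]
  exact image_congr fun z hz => h1 z hz

/-- A part of the support with at most one exit. -/
theorem exists_exit (a₀ : Ω) (w : Perm Ω) (j : ℕ) (hj : j ≤ w.support.card) :
    ∃ Z ⊆ w.support, Z.card = j ∧ ∃ a, ∀ z ∈ Z, z ≠ a → w z ∈ Z := by
  induction j with
  | zero => exact ⟨∅, empty_subset _, rfl, a₀, by simp⟩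
  | succ j ih =>
    obtain ⟨Z, h1, h2, a, h3⟩ := ih (by omega)
    by_cases ha : a ∈ Z ∧ w a ∉ Z
    · refine ⟨insert (w a) Z, insert_subset (Perm.apply_mem_support.2 (h1 ha.1)) h1,
        by rw [card_insert_of_notMem ha.2, h2], w a, fun z hz hz' => ?_⟩
      have hz := (mem_insert.1 hz).resolve_left hz'
      by_cases e : z = a
      · rw [e]; exact mem_insert_self _ _
      · exact mem_insert_of_mem (h3 z hz e)
    · obtain ⟨b, hb, hb'⟩ := exists_mem_notMem_of_card_lt_card (s := Z) (t := w.support) (by omega)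
      refine ⟨insert b Z, insert_subset hb h1, by rw [card_insert_of_notMem hb', h2], b,
        fun z hz hz' => mem_insert_of_mem ?_⟩
      have hz := (mem_insert.1 hz).resolve_left hz'
      by_cases e : z = a
      · subst e; exact not_not.1 fun h => ha ⟨hz, h⟩
      · exact h3 z hz e

theorem small_step (h : ∀ Z : Finset Ω, Z.card < t → JC G Z) {w : Perm Ω} (hw : w ∈ G) {j : ℕ}
    (h1 : j < t) (h2 : j < w.support.card) (h3 : w.support.card < Fintype.card Ω) :
    ∃ w' ∈ G, w' ≠ 1 ∧ w'.support.card + 2 * j ≤ 2 * w.support.card + 1 := by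
  obtain ⟨q, -, hq⟩ := exists_mem_notMem_of_card_lt_card (s := w.support) (t := univ)
    (by rwa [card_univ])
  obtain ⟨Z, hZ, hc, a, ha⟩ := exists_exit q w j h2.le
  obtain ⟨p, hp, hp'⟩ := exists_mem_notMem_of_card_lt_card (s := Z) (t := w.support) (by omega)
  obtain ⟨g, hg, g1, g2⟩ := h Z (by omega) p hp' q fun h => hq (hZ h)
  have g3 : ∀ z ∈ Z, g⁻¹ z = z := fun z hz => by rw [Perm.inv_eq_iff_eq, g1 z hz]
  refine ⟨(g * w * g⁻¹)⁻¹ * w, mul_mem (inv_mem (mul_mem (mul_mem hg hw) (inv_mem hg))) hw,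
    fun e => ?_, ?_⟩
  · rw [inv_mul_eq_one] at e
    have := congrArg (· q) e
    simp only [Perm.mul_apply, Perm.notMem_support.1 hq] at this
    rw [← g2] at this
    simp only [Perm.coe_inv, symm_apply_apply, EmbeddingLike.apply_eq_iff_eq] at this
    exact Perm.mem_support.1 hp this
  · have s1 : ((g * w * g⁻¹)⁻¹ * w).support ⊆
        insert a ((w.support \ Z) ∪ (w.support \ Z).image g) := fun r hr => by
      by_contra hc
      simp only [mem_insert, mem_union, mem_sdiff, mem_image_perm, not_or, not_and, not_not] at hc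
      apply Perm.mem_support.1 hr
      rw [Perm.mul_apply, Perm.inv_eq_iff_eq, Perm.mul_apply, Perm.mul_apply]
      by_cases hz : r ∈ Z
      · rw [g3 r hz, g1 _ (ha r hz hc.1)]
      · have e1 : w r = r := not_not.1 fun h => hz (hc.2.1 (Perm.mem_support.2 h))
        have e2 : w (g⁻¹ r) = g⁻¹ r := not_not.1 fun h => hz (by
          have := hc.2.2 (Perm.mem_support.2 h)
          rwa [← g1 _ this, ai] at this)
        rw [e1, e2, ai]
    have s2 := (card_le_card s1).trans ((card_insert_le _ _).trans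
      (Nat.add_le_add_right (card_union_le _ _) 1))
    rw [card_image_perm, card_sdiff_of_subset hZ] at s2
    omega

/-- High transitivity and a small support give an element moving at most three points. -/
theorem exists_small (h : ∀ Z : Finset Ω, Z.card < t → JC G Z) {w : Perm Ω} (hw : w ∈ G)
    (h0 : w ≠ 1) (h1 : w.support.card + 3 < 2 * t) (h3 : w.support.card < Fintype.card Ω) :
    ∃ w' ∈ G, w' ≠ 1 ∧ w'.support.card ≤ 3 := by
  induction hs : w.support.card using Nat.strong_induction_on generalizing w with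
  | _ s ih =>
    have hp : 0 < s := hs ▸ card_pos.2 (nonempty_iff_ne_empty.2 fun h =>
      h0 (Perm.support_eq_empty_iff.1 h))
    by_cases h4 : s ≤ t
    · obtain ⟨w', a, b, c⟩ := small_step h hw (j := s - 1) (by omega) (by omega) h3
      exact ⟨w', a, b, by omega⟩
    · obtain ⟨w', a, b, c⟩ := small_step h hw (j := t - 1) (by omega) (by omega) h3
      exact ih _ (by omega) a b (by omega) (by omega) rfl

variable (G) in
/-- The data of the Steiner system of the smallest small Jordan complements. -/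
structure Sys (n₀ t s : ℕ) : Prop where
  lt : t < s
  jc : ∀ Z : Finset Ω, Z.card < t → JC G Z
  big : 2 * n₀ < Fintype.card Ω
  le : s ≤ n₀
  ex : ∀ Z : Finset Ω, Z.card = t → ∃ B, JC G B ∧ B.card = s ∧ Z ⊆ B
  min : ∀ X, JC G X → X.card ≤ n₀ → t ≤ X.card → s ≤ X.card

theorem exists_sys {n₀ : ℕ} (big : 2 * n₀ < Fintype.card Ω) {X₀ : Finset Ω} (h0 : JC G X₀)
    (h1 : X₀.card = n₀) : (∀ Z : Finset Ω, Z.card < n₀ + 1 → JC G Z) ∨ ∃ t s, Sys G n₀ t s := by
  classical
  refine or_iff_not_imp_left.2 fun h => ?_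
  have ex : ∃ t, ∃ Z : Finset Ω, Z.card = t ∧ ¬ JC G Z := by
    push Not at h
    obtain ⟨Z, -, hZ⟩ := h
    exact ⟨_, Z, rfl, hZ⟩
  obtain ⟨Z₀, z1, z2⟩ := Nat.find_spec ex
  have jc : ∀ Z : Finset Ω, Z.card < Nat.find ex → JC G Z := fun Z hZ =>
    not_not.1 fun hn => Nat.find_min ex hZ ⟨Z, rfl, hn⟩
  have le : Nat.find ex ≤ n₀ := by
    by_contra hc
    exact h fun Z hZ => jc Z (by omega)
  generalize Nat.find ex = t at z1 jc le
  have ex' : ∃ s, ∃ X, JC G X ∧ X.card = s ∧ s ≤ n₀ ∧ t ≤ s := ⟨_, X₀, h0, h1, le_rfl, le⟩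
  obtain ⟨B, b1, b2, b3, b4⟩ := Nat.find_spec ex'
  refine ⟨t, Nat.find ex', lt_of_le_of_ne b4 fun e => ?_, jc, big, b3, fun Z hZ => ?_,
    fun X x1 x2 x3 => Nat.find_min' ex' ⟨X, x1, rfl, x2, x3⟩⟩
  · obtain ⟨g, hg, e'⟩ := move_set jc (Z := B) (Z' := Z₀) (by omega) (by omega)
    exact z2 (e' ▸ b1.image hg)
  · obtain ⟨Z', h2, h3⟩ := exists_subset_card_eq (s := B) (n := t) (by omega)
    obtain ⟨g, hg, e'⟩ := move_set jc (Z := Z') (Z' := Z) h3.le (h3.trans hZ.symm)
    exact ⟨B.image g, b1.image hg, by rw [card_image_perm, b2], e' ▸ image_subset_image h2⟩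

variable {n₀ s : ℕ} (S : Sys G n₀ t s)
include S

theorem Sys.sub {B X : Finset Ω} (b1 : JC G B) (b2 : B.card = s) (x1 : JC G X) (x2 : X.card ≤ n₀)
    {Z : Finset Ω} (z1 : t ≤ Z.card) (z2 : Z ⊆ B) (z3 : Z ⊆ X) : B ⊆ X := by
  obtain ⟨r, -, hr⟩ := exists_mem_notMem_of_card_lt_card (s := B ∪ X) (t := univ) (by
    have := card_union_le B X
    have := S.big
    have := S.le
    rw [card_univ]; omega)
  rw [mem_union, not_or] at hr
  have h1 := S.min _ (b1.inter x1 hr.1 hr.2) ((card_le_card inter_subset_right).trans x2)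
    (z1.trans (card_le_card (subset_inter z2 z3)))
  rw [← eq_of_subset_of_card_le (inter_subset_left (s₁ := B) (s₂ := X)) (b2 ▸ h1)]
  exact inter_subset_right

theorem Sys.inv {B : Finset Ω} (b1 : JC G B) (b2 : B.card = s) {g : Perm Ω} (hg : g ∈ G)
    {Z : Finset Ω} (z1 : t ≤ Z.card) (z2 : Z ⊆ B) (z3 : ∀ z ∈ Z, g z ∈ B) {p : Ω} (hp : p ∈ B) :
    g p ∈ B := by
  have := S.sub b1 b2 (b1.image (inv_mem hg)) (by rw [card_image_perm, b2]; exact S.le) z1 z2
    (fun z hz => by rw [mem_image_perm, inv_inv]; exact z3 z hz) hp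
  rwa [mem_image_perm, inv_inv] at this

/-- The lower bound for the number of points of a subsystem. -/
theorem Sys.bound {X : Finset Ω} (hX : ∀ B, JC G B → B.card = s → ∀ Z : Finset Ω, t ≤ Z.card →
    Z ⊆ B → Z ⊆ X → B ⊆ X) (h : s < X.card) : (t + 1) * (s - t + 1) ≤ X.card := by
  have lt := S.lt
  obtain ⟨Z, z1, z2⟩ := exists_subset_card_eq (s := X) (n := t) (by omega)
  obtain ⟨B, b1, b2, b3⟩ := S.ex Z z2
  obtain ⟨p, hp, hp'⟩ := exists_mem_notMem_of_card_lt_card (s := B) (t := X) (by omega)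
  have pZ : p ∉ Z := fun h => hp' (b3 h)
  have cT : (insert p Z).card = t + 1 := by rw [card_insert_of_notMem pZ, z2]
  have sT : insert p Z ⊆ X := insert_subset hp z1
  have nT : ∀ B', JC G B' → B'.card = s → ¬ insert p Z ⊆ B' := fun B' c1 c2 c3 =>
    hp' (S.sub c1 c2 b1 (b2 ▸ S.le) z2.ge ((subset_insert _ _).trans c3) b3
      (c3 (mem_insert_self _ _)))
  generalize insert p Z = T at cT sT nT
  have ce : ∀ z ∈ T, (T.erase z).card = t := fun z hz => by rw [card_erase_of_mem hz, cT]; rfl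
  choose! C c1 c2 c3 using fun z (hz : z ∈ T) => S.ex _ (ce z hz)
  have nz : ∀ z ∈ T, z ∉ C z := fun z hz h => nT _ (c1 z hz) (c2 z hz) fun w hw => by
    by_cases e : w = z
    · rwa [e]
    · exact c3 z hz (mem_erase.2 ⟨e, hw⟩)
  have cd : ∀ z ∈ T, (C z \ T).card = s - t := fun z hz => by
    rw [card_sdiff, c2 z hz, ← ce z hz]
    congr 2
    exact (subset_antisymm (fun w hw => mem_erase.2 ⟨fun e => nz z hz (by
      have := (mem_inter.1 hw).2
      rwa [e] at this),
      (mem_inter.1 hw).1⟩) (subset_inter (erase_subset _ _) (c3 z hz)))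
  have hd : ∀ z ∈ T, ∀ z' ∈ T, z ≠ z' → Disjoint (C z \ T) (C z' \ T) := fun z hz z' hz' e =>
    disjoint_left.2 fun w h1 h2 => by
      obtain ⟨w1, w2⟩ := mem_sdiff.1 h1
      refine nz z' hz' (S.sub (c1 z hz) (c2 z hz) (c1 z' hz') (c2 z' hz' ▸ S.le)
        (Z := insert w ((T.erase z).erase z')) ?_ (insert_subset w1 ((erase_subset _ _).trans
          (c3 z hz))) (insert_subset (mem_sdiff.1 h2).1 fun v hv => c3 z' hz' ?_)
        (c3 z hz (mem_erase.2 ⟨e.symm, hz'⟩)))
      · have := ce z hz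
        have := card_pos.2 ⟨z', (mem_erase.2 ⟨e.symm, hz'⟩ : z' ∈ T.erase z)⟩
        rw [card_insert_of_notMem (fun h => w2 (mem_of_mem_erase (mem_of_mem_erase h))),
          card_erase_of_mem (mem_erase.2 ⟨e.symm, hz'⟩)]
        omega
      · exact mem_erase.2 ⟨(mem_erase.1 hv).1, mem_of_mem_erase (mem_of_mem_erase hv)⟩
  have h1 : (T.biUnion fun z => C z \ T).card = (t + 1) * (s - t) := by
    rw [card_biUnion hd, sum_congr rfl cd, sum_const, cT, smul_eq_mul]
  have h2 : T ∪ (T.biUnion fun z => C z \ T) ⊆ X := union_subset sT (biUnion_subset.2 fun z hz =>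
    sdiff_subset.trans (hX _ (c1 z hz) (c2 z hz) _ (ce z hz).ge (c3 z hz)
      ((erase_subset _ _).trans sT)))
  have h3 := card_le_card h2
  rw [card_union_of_disjoint (disjoint_biUnion_right _ _ _ |>.2 fun z _ => disjoint_sdiff), h1,
    cT] at h3
  rw [mul_add, mul_one, add_comm]; exact h3

end Cfsg.Agent.PA
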