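import Cfsg.Agent.PA.Two

/-! Overgroups of `Alt(M) × E` on `M × Y`: elements preserving lines. -/

set_option autoImplicit false
set_option linter.unusedSectionVars false
set_option linter.unusedVariables false
set_option linter.unusedSimpArgs false

namespace Cfsg.Agent.PA

open Equiv Finset

variable {M Y : Type*} [Fintype M] [DecidableEq M] [Fintype Y] [DecidableEq Y]
  {G : Subgroup (Perm (M × Y))}

/-- A permutation acting on every line separately. -/
def pl : (Y → Perm M) →* Perm (M × Y) where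
  toFun l := Equiv.prodCongrLeft l
  map_one' := rfl
  map_mul' _ _ := rfl

@[simp] theorem pl_apply (l : Y → Perm M) (p : M × Y) : pl l p = (l p.2 p.1, p.2) := rfl

theorem exists_pl {g : Perm (M × Y)} (h : ∀ p, (g p).2 = p.2) : ∃ l, g = pl l :=
  ⟨fun y => Equiv.ofBijective (fun c => (g (c, y)).1) (Finite.injective_iff_bijective.1 fun c d e =>
    (Prod.ext_iff.1 (g.injective (Prod.ext e ((h _).trans (h (d, y)).symm)) : (c, y) = (d, y))).1),
    Equiv.ext fun p => Prod.ext rfl (h p)⟩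

section five
variable (h5 : 5 ≤ Fintype.card M)
include h5

theorem cent_alt {a : Perm M} (h : ∀ σ : Perm M, σ.sign = 1 → a * σ = σ * a) : a = 1 :=
  Equiv.ext fun u => by_contra fun e => by
    obtain ⟨w, w1, w2, -⟩ := fresh h5 u (a u) u u
    obtain ⟨σ, s0, s1, -, s2⟩ := alt_fix h5 (a := u) (b := u) (c := a u) e e w1 w1
    have := congrArg (· u) (h σ s0)
    simp only [Perm.mul_apply, s1, s2] at this
    exact w2 this.symm

theorem all_even (N : Subgroup (Perm M)) (hN : ∀ σ : Perm M, σ.sign = 1 → ∀ b ∈ N, σ * b * σ⁻¹ ∈ N)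
    {b : Perm M} (h1 : b ∈ N) (h2 : b.sign = 1) (h3 : b ≠ 1) {σ : Perm M} (h : σ.sign = 1) :
    σ ∈ N := by
  have := alternatingGroup.isSimpleGroup (α := M) (by rwa [Nat.card_eq_fintype_card])
  have n : (N.subgroupOf (alternatingGroup M)).Normal := ⟨fun c hc σ => hN σ σ.2 c hc⟩
  rcases n.eq_bot_or_eq_top with e | e
  · have : (⟨b, h2⟩ : alternatingGroup M) ∈ N.subgroupOf (alternatingGroup M) := h1
    rw [e, Subgroup.mem_bot, Subtype.ext_iff] at this
    exact (h3 this).elim
  · have : (⟨σ, h⟩ : alternatingGroup M) ∈ N.subgroupOf (alternatingGroup M) := e ▸ trivial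
    exact this

theorem exists_not_comm {a b : Perm M} (ha : a ≠ 1) (h2 : b.sign = 1) (h3 : b ≠ 1) :
    ∃ σ : Perm M, σ.sign = 1 ∧ ¬ Commute a (σ * b * σ⁻¹) := by
  by_contra hc
  push Not at hc
  refine ha (cent_alt h5 fun σ hσ => ?_)
  have := all_even h5
    { carrier := {c | ∀ σ : Perm M, σ.sign = 1 → Commute a (σ * c * σ⁻¹)}
      mul_mem' := fun h h' σ s => by simpa [mul_assoc] using (h σ s).mul_right (h' σ s)
      one_mem' := fun σ s => by simp
      inv_mem' := fun h σ s => by simpa [mul_assoc] using (h σ s).inv_right }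
    (fun τ t c h σ s => by simpa [mul_assoc] using h (σ * τ) (by simp [s, t])) hc h2 h3 hσ 1 (by simp)
  simpa using this.eq

end five

/-- An explicit three-cycle. -/
structure Tri (x : Perm M) (a b c : M) : Prop where
  ab : a ≠ b
  ac : a ≠ c
  bc : b ≠ c
  xa : x a = b
  xb : x b = c
  xc : x c = a
  fx : ∀ d, d ≠ a → d ≠ b → d ≠ c → x d = d

theorem exists_tri {x : Perm M} (h : x.IsThreeCycle) : ∃ a b c, Tri x a b c := by
  obtain ⟨a, ha⟩ := card_pos.1 (show 0 < x.support.card by rw [h.card_support]; omega)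
  have h1 := h.nodup_iff_mem_support.2 ha
  have h2 := h.support_eq_iff_mem_support.2 ha
  simp only [List.nodup_cons, List.mem_cons, not_or] at h1
  refine ⟨a, x a, x (x a), h1.1.1, h1.1.2.1, h1.2.1.1, rfl, rfl, ?_, fun d d1 d2 d3 =>
    Perm.notMem_support.1 (by simp [h2, d1, d2, d3])⟩
  have : (x ^ 3) a = a := by simp [← h.orderOf]
  simpa [pow_succ] using this

theorem Tri.rot {x : Perm M} {a b c : M} (T : Tri x a b c) : Tri x b c a :=
  ⟨T.bc, T.ab.symm, T.ac.symm, T.xb, T.xc, T.xa, fun d h1 h2 h3 => T.fx d h3 h1 h2⟩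

theorem Tri.ne_iff {x : Perm M} {a b c : M} (T : Tri x a b c) {d : M} :
    x d ≠ d ↔ d = a ∨ d = b ∨ d = c := by
  refine ⟨fun h => by_contra fun hc => ?_, ?_⟩
  · simp only [not_or] at hc
    exact h (T.fx d hc.1 hc.2.1 hc.2.2)
  · rintro (rfl | rfl | rfl)
    exacts [T.xa ▸ T.ab.symm, T.xb ▸ T.bc.symm, T.xc ▸ T.ac]

/-- An even permutation inverting a three-cycle and swapping two of its fixed points. -/
theorem Tri.inverts {x : Perm M} {a b c : M} (T : Tri x a b c) {u v : M} (hu : x u = u)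
    (hv : x v = v) : swap b c * swap u v * x = x⁻¹ * (swap b c * swap u v) := by
  have := T.ab; have := T.ac; have := T.bc; have := T.xa; have := T.xb; have := T.xc
  have fx := T.fx
  rw [eq_inv_mul_iff_mul_eq]
  ext d
  simp only [Perm.mul_apply, swap_apply_def]
  by_cases h : x d = d
  · have := T.ne_iff (d := d)
    have := T.ne_iff (d := u)
    have := T.ne_iff (d := v)
    grind
  · rcases T.ne_iff.1 h with rfl | rfl | rfl <;> grind

theorem Tri.comm {x : Perm M} {a b c : M} (T : Tri x a b c) {ρ : Perm M} (h1 : ρ a = a)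
    (h2 : ρ b = b) (h3 : ρ c = c) : ρ * x = x * ρ := by
  ext d
  simp only [Perm.mul_apply]
  by_cases h : x d = d
  · rw [h, T.fx] <;> intro e
    exacts [T.ne_iff.2 (Or.inl (ρ.injective (e.trans h1.symm))) h,
      T.ne_iff.2 (Or.inr (Or.inl (ρ.injective (e.trans h2.symm)))) h,
      T.ne_iff.2 (Or.inr (Or.inr (ρ.injective (e.trans h3.symm)))) h]
  · rcases T.ne_iff.1 h with rfl | rfl | rfl <;> simp only [T.xa, T.xb, T.xc, h1, h2, h3]

namespace St
variable (S : St G)
include S

/-- An element preserving every line acts in the same way on all of them. -/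
theorem eq_pc {g : Perm (M × Y)} (hg : g ∈ G) (h : ∀ p, (g p).2 = p.2) : ∃ σ, g = pc σ 1 := by
  obtain ⟨l₀, rfl⟩ := exists_pl h
  have h5 := S.five
  have hN := S.le_card
  obtain ⟨y₀⟩ : Nonempty Y := Fintype.card_pos_iff.1 (by omega)
  let L : Subgroup (Y → Perm M) := G.comap pl
  have cst : ∀ σ : Perm M, σ.sign = 1 → (fun _ => σ) ∈ L := S.alt
  rcases S.primY (fun y y' => ∀ l ∈ L, l y = l y') ⟨fun _ _ _ => rfl, fun h l hl => (h l hl).symm,
    fun h h' l hl => (h l hl).trans (h' l hl)⟩ (fun ρ ζ hw y y' h l hl => by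
      have := h (fun z => ρ⁻¹ * l (ζ z) * ρ) (by
        have := mul_mem (mul_mem (inv_mem hw) hl) hw
        change pl _ ∈ G
        convert this using 1
        ext p <;> simp [pc_inv])
      simpa using this) with h1 | h1
  swap
  · exact ⟨l₀ y₀, Equiv.ext fun p => Prod.ext (by simp [h1 y₀ p.2 l₀ hg]) rfl⟩
  exfalso
  have sep : ∀ y y', y ≠ y' → ∃ l ∈ L, (∀ z, (l z).sign = 1) ∧ l y = 1 ∧ l y' ≠ 1 := fun y y' e => by
    obtain ⟨l, hl, n⟩ : ∃ l ∈ L, l y ≠ l y' := by
      by_contra hc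
      push Not at hc
      exact e (h1 _ _ hc)
    obtain ⟨σ, s1, s2⟩ : ∃ σ : Perm M, σ.sign = 1 ∧ (l y)⁻¹ * l y' * σ ≠ σ * ((l y)⁻¹ * l y') := by
      by_contra hc
      push Not at hc
      exact n (inv_mul_eq_one.1 (cent_alt h5 hc))
    refine ⟨_, mul_mem (inv_mem (cst (l y * σ * (l y)⁻¹) (by simp [s1])))
      (mul_mem (mul_mem hl (cst σ s1)) (inv_mem hl)), fun z => by simp [s1], inv_mul_cancel _,
      fun h => s2 ?_⟩
    simp only [Pi.mul_apply, Pi.inv_apply, inv_mul_eq_one] at h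
    calc _ = (l y)⁻¹ * (l y' * σ * (l y')⁻¹) * l y' := by group
      _ = _ := by rw [← h]; group
  classical
  have ex : ∃ n, ∃ l ∈ L, (∀ z, (l z).sign = 1) ∧ (∃ z, l z ≠ 1) ∧
      (univ.filter fun z => l z ≠ 1).card = n := by
    obtain ⟨y₁, hy⟩ := Fintype.exists_ne_of_one_lt_card (by omega) y₀
    obtain ⟨l, a, b, -, c⟩ := sep _ _ hy
    exact ⟨_, l, a, b, ⟨_, c⟩, rfl⟩
  obtain ⟨l, l1, l2, ⟨y, l3⟩, l4⟩ := Nat.find_spec ex
  have one : ∀ z, z ≠ y → l z = 1 := fun z hz => by_contra fun n => by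
    obtain ⟨k, k1, k2, k3, k4⟩ := sep z y hz
    obtain ⟨σ, s1, s2⟩ := exists_not_comm h5 l3 (k2 y) k4
    have m := mul_mem (mul_mem (cst σ s1) k1) (inv_mem (cst σ s1))
    refine Nat.find_min ex (m := _) ?_ ⟨_, mul_mem (mul_mem (mul_mem l1 m) (inv_mem l1)) (inv_mem m),
      fun z => by simp [l2, k2, s1], ⟨y, fun h => s2 ?_⟩, rfl⟩
    · rw [← l4]
      refine card_lt_card ⟨fun w hw => ?_, fun h => ?_⟩
      · simp only [mem_filter, mem_univ, true_and] at hw ⊢
        exact fun e => hw (by simp [e])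
      · simpa [k3] using h (show z ∈ _ by simpa using n)
    · simp only [Pi.mul_apply, Pi.inv_apply, mul_inv_eq_one, mul_inv_eq_iff_eq_mul] at h
      exact h
  obtain ⟨a⟩ : Nonempty M := Fintype.card_pos_iff.1 (by omega)
  obtain ⟨x, hx, -⟩ := exists_three h5 a a
  have mx : Pi.mulSingle y x ∈ L := all_even h5 (L.comap (MonoidHom.mulSingle (fun _ => Perm M) y))
    (fun σ s b hb => by
      have := mul_mem (mul_mem (cst σ s) hb) (inv_mem (cst σ s))
      change Pi.mulSingle y _ ∈ L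
      convert this using 1
      ext1 z
      by_cases e : z = y <;> simp [e]) (b := l y) (by
      change Pi.mulSingle y _ ∈ L
      convert l1 using 1
      ext1 z
      by_cases e : z = y
      · simp [e]
      · simp [e, one z e]) (l2 y) l3 hx.sign
  have e : (pl (Pi.mulSingle y x)).support = x.support ×ˢ {y} := by
    ext ⟨c, z⟩
    simp only [Perm.mem_support, pl_apply, mem_product, mem_singleton]
    by_cases e : z = y <;> simp [e]
  have := S.no3 _ mx (by rw [e, card_product, hx.card_support, card_singleton])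
  rw [this, Perm.support_one] at e
  have := congrArg card e
  simp [hx.card_support] at this

theorem eq_pc_of_fix {a b : M} (hab : a ≠ b) {g : Perm (M × Y)} (hg : g ∈ G)
    (h : ∀ p : M × Y, p.1 = a ∨ p.1 = b → g p = p) : ∃ σ, g = pc σ 1 :=
  S.eq_pc hg (S.snd_of_fix hab hg fun p hp => h p (mem_sl.1 hp))

/-- The elements of order three permuting the lines. -/
theorem of_lines {g : Perm (M × Y)} (hg : g ∈ G) (h : ∀ p q : M × Y, p.2 = q.2 → (g p).2 = (g q).2)
    (h3 : g ^ 3 = 1) (hs : g.support.card = 3 * Fintype.card Y) :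
    (∃ ρ : Perm M, ρ.IsThreeCycle ∧ g = pc ρ 1) ∨ ∃ ζ, g = pc 1 ζ := by
  have h5 := S.five
  have hN := S.le_card
  obtain ⟨y₀⟩ : Nonempty Y := Fintype.card_pos_iff.1 (by omega)
  obtain ⟨c₀⟩ : Nonempty M := Fintype.card_pos_iff.1 (by omega)
  have hi : g⁻¹ = g * g := inv_eq_of_mul_eq_one_right (by rw [← h3, pow_three])
  have k : ∀ c y y', (g (c, y)).1 = (g (c, y')).1 := fun c y y' => by_contra fun n => by
    let q := g⁻¹ ((g (c, y')).1, (g (c, y)).2)
    have q2 : q.2 = y := by
      have := h _ _ (h ((g (c, y')).1, (g (c, y)).2) (g (c, y)) rfl)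
      rwa [← Perm.mul_apply, ← Perm.mul_apply g g, ← hi, ia] at this
    have q1 : q.1 ≠ c := fun e => n (by
      rw [show (c, y) = q from Prod.ext e.symm q2.symm, ai])
    obtain ⟨w, w1, w2, -⟩ := fresh h5 c q.1 c c
    obtain ⟨σ, s0, s1, -, s2⟩ := alt_fix h5 q1 q1 w1 w1
    obtain ⟨τ, e⟩ := S.eq_pc (mul_mem (mul_mem hg (S.alt σ s0)) (inv_mem hg)) fun p => by
      rw [Perm.mul_apply, Perm.mul_apply, h (pc σ 1 (g⁻¹ p)) (g⁻¹ p) rfl, ai]
    have e1 := congrArg (· (g (c, y'))) e
    have e2 := congrArg (· (g q)) e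
    simp only [Perm.mul_apply, ia, pc_apply, s1, s2, Perm.one_apply] at e1 e2
    rw [show τ (g q).1 = (g q).1 by rw [ai]; exact (Prod.ext_iff.1 e1).1.symm] at e2
    exact w2 (Prod.ext_iff.1 (g.injective e2)).1
  let ρ : Perm M := Equiv.ofBijective (fun c => (g (c, y₀)).1) (Finite.injective_iff_bijective.1 fun c d e =>
    (Prod.ext_iff.1 (g.injective (Prod.ext e (h _ _ rfl)) : (c, y₀) = (d, y₀))).1)
  let ζ : Perm Y := Equiv.ofBijective (fun y => (g (c₀, y)).2) (Finite.injective_iff_bijective.1 fun y y' e =>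
    (Prod.ext_iff.1 (g.injective (Prod.ext (k _ _ _) e) : (c₀, y) = (c₀, y'))).2)
  have e : g = pc ρ ζ := Equiv.ext fun p => Prod.ext (k _ _ _) (h _ _ rfl)
  clear_value ρ ζ
  by_cases h1 : ρ = 1
  · exact Or.inr ⟨ζ, h1 ▸ e⟩
  have r3 : ρ * (ρ * ρ) = 1 := Equiv.ext fun c => by
    have := congrArg (fun z : Perm (M × Y) => (z (c, y₀)).1) h3
    simpa [e, pow_three] using this
  have c3 : 3 ≤ ρ.support.card := by
    have := Perm.two_le_card_support_of_ne_one h1
    by_contra hc
    obtain ⟨u, v, -, rfl⟩ := Perm.card_support_eq_two.1 (show ρ.support.card = 2 by omega)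
    exact h1 (by simpa using r3)
  have sub : ρ.support ×ˢ univ ⊆ g.support := fun p hp => by
    rw [e, Perm.mem_support]
    exact fun n => Perm.mem_support.1 (mem_product.1 hp).1 (Prod.ext_iff.1 n).1
  have c4 := card_le_card sub
  rw [card_product, card_univ, hs] at c4
  have c5 : ρ.support.card = 3 := le_antisymm (Nat.le_of_mul_le_mul_right c4 (by omega)) c3
  have c6 := eq_of_subset_of_card_le sub (by rw [card_product, card_univ, hs, c5])
  obtain ⟨c, -, hc⟩ := exists_mem_notMem_of_card_lt_card (s := ρ.support) (t := univ)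
    (by rw [card_univ]; omega)
  refine Or.inl ⟨ρ, card_support_eq_three_iff.1 c5, e.trans (congrArg _ (Equiv.ext fun y => ?_))⟩
  have : (c, y) ∉ g.support := by rw [← c6]; exact fun h => hc (mem_product.1 h).1
  rw [Perm.notMem_support, e] at this
  exact (Prod.ext_iff.1 this).2

end St

end Cfsg.Agent.PA
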