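import Cfsg.Agent.PA.Fun

/-! Overgroups of the product action: the count of directions modulo three. -/

set_option autoImplicit false
set_option linter.unusedSectionVars false
set_option linter.unusedVariables false
set_option linter.unusedSimpArgs false

namespace Cfsg.Agent.PA

open Equiv Finset
open Function hiding swap
open scoped Pointwise

variable {ι M : Type*} [Fintype ι] [DecidableEq ι] [Fintype M] [DecidableEq M]
  {G : Subgroup (Perm (ι → M))}

theorem Hy.conj_inv (H : Hy G) {g : Perm (ι → M)} (hg : g ∈ G) {i j : ι} {ρ x : Perm M}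
    (hρ : ρ.IsThreeCycle) (hx : x.IsThreeCycle) (e : g * co i ρ * g⁻¹ = co j x) {a b c u v : M}
    (T : Tri ρ a b c) (hu : ρ u = u) (hv : ρ v = v) (huv : u ≠ v) :
    ∃ σ, g * co i (swap b c * swap u v) * g⁻¹ = co j σ := by
  obtain ⟨a', b', c', T'⟩ := exists_tri hx
  obtain ⟨u', u1, u2, u3, -⟩ := fresh H.five a' b' c' c'
  obtain ⟨v', v1, v2, v3, v4⟩ := fresh H.five a' b' c' u'
  have i1 := T.inverts hu hv
  have i2 := T'.inverts (T'.fx u' u1 u2 u3) (T'.fx v' v1 v2 v3)
  have s1 : (swap b c * swap u v).sign = 1 := by simp [T.bc, huv]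
  have s2 : (swap b' c' * swap u' v').sign = 1 := by simp [T'.bc, v4.symm]
  generalize swap b c * swap u v = s at i1 s1
  generalize swap b' c' * swap u' v' = s' at i2 s2
  have j1 : g * co i s * g⁻¹ * co j x = (co j x)⁻¹ * (g * co i s * g⁻¹) := by
    have := congrArg (co i) i1
    rw [map_mul, map_mul, map_inv] at this
    rw [← e]
    calc _ = g * (co i s * co i ρ) * g⁻¹ := by group
      _ = _ := by rw [this]; group
  have j2 : co j s' * (co j x)⁻¹ = co j x * co j s' := by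
    rw [mul_inv_eq_iff_eq_mul, mul_assoc, ← map_mul, i2, ← map_mul, mul_inv_cancel_left]
  obtain ⟨σ, h⟩ := H.eq_co_of_cent hx (mul_mem (H.alt j s' s2) (mul_mem (mul_mem hg (H.alt i s s1))
    (inv_mem hg))) (by rw [mul_assoc, j1, ← mul_assoc, j2, mul_assoc]) fun f hf => by
    have k1 : ρ (g⁻¹ f i) ≠ g⁻¹ f i := fun h => hf (by
      rw [← co_eq_iff, ← e, Perm.mul_apply, Perm.mul_apply, co_eq_iff.2 h, ai])
    have k2 : ρ (s (g⁻¹ f i)) ≠ s (g⁻¹ f i) := fun h => k1 (s.injective (by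
      rw [← Perm.mul_apply, i1, Perm.mul_apply, Perm.inv_eq_iff_eq, h]))
    obtain ⟨n, hn⟩ := hρ.isCycle.exists_pow_eq k1 k2
    have k3 : (g * co i s * g⁻¹) f = co j (x ^ n) f := by
      rw [map_pow, ← e, conj_pow, ← map_pow, Perm.mul_apply, Perm.mul_apply, Perm.mul_apply,
        Perm.mul_apply, co_apply, co_apply, hn]
    rw [Perm.mul_apply, k3]
    exact ((ln_co j _ f).trans (ln_co j _ _)).symm
  exact ⟨s'⁻¹ * σ, by rw [map_mul, map_inv, ← h, inv_mul_cancel_left]⟩

theorem Hy.lines_of_conj (H : Hy G) {g : Perm (ι → M)} (hg : g ∈ G) {i j : ι} {ρ x : Perm M}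
    (hρ : ρ.IsThreeCycle) (hx : x.IsThreeCycle) (e : g * co i ρ * g⁻¹ = co j x) {f f' : ι → M}
    (h : ln i f f') : ln j (g f) (g f') := by
  have h5 := H.five
  have k1 : ∀ a b c, Tri ρ a b c → ∀ f f', f i = a → f' j = g f j → g⁻¹ f' i = a :=
    fun a b c T f f' h1 h2 => by_contra fun n => by
      obtain ⟨u, v, hu, hv, huv, m⟩ : ∃ u v, ρ u = u ∧ ρ v = v ∧ u ≠ v ∧
          (swap b c * swap u v) (g⁻¹ f' i) ≠ g⁻¹ f' i := by
        have := T.bc
        by_cases hd : ρ (g⁻¹ f' i) = g⁻¹ f' i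
        · obtain ⟨v, v1, v2, v3, v4⟩ := fresh h5 a b c (g⁻¹ f' i)
          exact ⟨_, v, hd, T.fx v v1 v2 v3, v4.symm, by
            rwa [Perm.mul_apply, swap_apply_left, swap_apply_of_ne_of_ne v2 v3]⟩
        · obtain ⟨u, u1, u2, u3, -⟩ := fresh h5 a b c c
          obtain ⟨v, v1, v2, v3, v4⟩ := fresh h5 a b c u
          refine ⟨u, v, T.fx u u1 u2 u3, T.fx v v1 v2 v3, v4.symm, ?_⟩
          rcases (T.ne_iff.1 hd).resolve_left n with h | h <;> rw [h, Perm.mul_apply]
          · rw [swap_apply_of_ne_of_ne u2.symm v2.symm, swap_apply_left]; exact this.symm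
          · rw [swap_apply_of_ne_of_ne u3.symm v3.symm, swap_apply_right]; exact this
      obtain ⟨σ, h⟩ := H.conj_inv hg hρ hx e T hu hv huv
      have e1 : co j σ (g f) = g f := by
        have n := fun d => T.ne_iff (d := d)
        rw [← h, Perm.mul_apply, Perm.mul_apply, ia, co_eq_iff.2]
        rw [h1, Perm.mul_apply, swap_apply_of_ne_of_ne (x := a), swap_apply_of_ne_of_ne T.ab T.ac] <;>
          grind
      rw [co_eq_iff, ← h2, ← co_eq_iff, ← h, Perm.mul_apply, Perm.mul_apply, ← Perm.eq_inv_iff_eq,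
        co_eq_iff] at e1
      exact m e1
  have k2 : ∀ a b c, Tri ρ a b c → ∀ f d, f i ≠ a → f i ≠ b → d ≠ a → d ≠ b →
      ln j (g f) (g (update f i d)) := fun a b c T f d n1 n2 n3 n4 => by
    obtain ⟨z, z0, z1, z2, z3⟩ := alt_fix h5 n1 n2 n3 n4
    obtain ⟨σ, h⟩ := H.eq_co_of_fix (i := j) (a := g (fun _ => a) j) (b := g (fun _ => b) j)
      (fun h => T.ab (by simpa [ia] using (k1 a b c T (fun _ => a) _ rfl h.symm).symm))
      (mul_mem (mul_mem hg (H.alt i z z0)) (inv_mem hg)) fun f' hf => by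
        rw [Perm.mul_apply, Perm.mul_apply, co_eq_iff.2, ai]
        rcases hf with hf | hf
        · rw [k1 a b c T _ _ rfl hf, z1]
        · rw [k1 b c a T.rot _ _ rfl hf, z2]
    have := ln_co j σ (g f)
    rwa [← h, Perm.mul_apply, Perm.mul_apply, ia, co_apply, z3] at this
  obtain ⟨a, b, c, T⟩ := exists_tri hρ
  obtain ⟨u, u1, u2, u3, -⟩ := fresh h5 a b c c
  have k3 : ∀ f, ln j (g f) (g (update f i u)) := fun f => by
    by_cases e1 : f i = a
    · exact k2 b c a T.rot f u (e1 ▸ T.ab) (e1 ▸ T.ac) u2 u3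
    by_cases e2 : f i = b
    · exact k2 c a b T.rot.rot f u (e2 ▸ T.bc) e1 u3 u1
    · exact k2 a b c T f u e1 e2 u1 u2
  have := k3 f'
  rw [h.eq, update_idem, ← h.eq] at this
  exact (k3 f).trans this.symm

/-- The pairs on a common line in direction `i`. -/
def LS (M : Type*) (i : ι) : Set ((ι → M) × (ι → M)) := {p | ln i p.1 p.2}

theorem mem_smul_LS {g : Perm (ι → M)} {i : ι} {p : (ι → M) × (ι → M)} :
    p ∈ g • LS M i ↔ ln i (g⁻¹ p.1) (g⁻¹ p.2) := Set.mem_smul_set_iff_inv_smul_mem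

theorem co_smul_LS (i j : ι) (σ : Perm M) : co j σ • LS M i = LS M i := Set.ext fun p => by
  rw [mem_smul_LS, ← map_inv]
  refine forall₂_congr fun l hl => ?_
  by_cases e : l = j
  · rw [e, co_same, co_same, σ⁻¹.injective.eq_iff]
  · rw [co_ne e, co_ne e]

theorem Hy.std (H : Hy G) {g : Perm (ι → M)} (hg : g ∈ G) {i : ι} {x : ι → Perm M}
    (hx : ∀ l, (x l).IsThreeCycle) (h : ∀ l, co l (x l) • g • LS M i = g • LS M i) :
    ∃ j, g • LS M i = LS M j := by
  have h5 := H.five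
  have k : ∀ l, (∃ ρ : Perm M, ρ.IsThreeCycle ∧ g⁻¹ * co l (x l) * g = co i ρ) ∨
      ∀ σ, Commute (g⁻¹ * co l (x l) * g) (co i σ) := fun l =>
    H.of_lines (mul_mem (mul_mem (inv_mem hg) (H.alt l _ (hx l).sign)) hg) (fun f f' e => by
      have : (co l (x l) (g f), co l (x l) (g f')) ∈ g • LS M i := by
        rw [← h l]
        exact Set.smul_mem_smul_set (a := co l (x l)) (b := (g f, g f'))
          (Set.smul_mem_smul_set (a := g) (b := (f, f')) e)
      exact mem_smul_LS.1 this) (by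
      rw [← inv_inv g, inv_inv g⁻¹, conj_pow, ← map_pow, ← (hx l).orderOf, pow_orderOf_eq_one,
        map_one, mul_one, mul_inv_cancel]) (by
      rw [← inv_inv g, inv_inv g⁻¹, Perm.card_support_conj, card_support_co, (hx l).card_support])
  by_cases h1 : ∃ l, ∃ ρ : Perm M, ρ.IsThreeCycle ∧ g⁻¹ * co l (x l) * g = co i ρ
  · obtain ⟨l, ρ, hρ, e⟩ := h1
    refine ⟨l, Set.ext fun p => mem_smul_LS.trans ⟨fun h => ?_, fun h =>
      H.lines_of_conj (inv_mem hg) (hx l) hρ (by rwa [inv_inv]) h⟩⟩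
    have := H.lines_of_conj (j := l) hg hρ (hx l) (by rw [← e]; group) h
    rwa [ai, ai] at this
  exfalso
  replace k := fun l => (k l).resolve_left fun h => h1 ⟨l, h⟩
  choose f hf using fun l => (hx l).isCycle
  obtain ⟨b, b1, -⟩ := fresh h5 (g⁻¹ f i) (g⁻¹ f i) (g⁻¹ f i) (g⁻¹ f i)
  obtain ⟨s, s1, s2⟩ : ∃ s : Perm M, s * s = 1 ∧ s (g⁻¹ f i) = b :=
    ⟨swap (g⁻¹ f i) b, swap_mul_self _ _, swap_apply_left _ _⟩
  have c0 : ∀ l, Commute (g * co i s * g⁻¹) (co l (x l)) := fun l => by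
    simpa [mul_assoc] using ((k l s).map (MulAut.conj g)).symm
  have c3 : ∀ l, x l ((g * co i s * g⁻¹) f l) ≠ (g * co i s * g⁻¹) f l := fun l h => (hf l).1 (by
    rw [← co_eq_iff, ← Perm.mul_apply, ← (c0 l).eq, Perm.mul_apply] at h
    exact co_eq_iff.1 ((g * co i s * g⁻¹).injective h))
  choose n hn using fun l => (hx l).isCycle.exists_pow_eq (hf l).1 (c3 l)
  have c4 : Commute (g * co i s * g⁻¹) (bs fun l => x l ^ n l) :=
    bs_mem (G := Subgroup.centralizer {g * co i s * g⁻¹}) (fun l => by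
      rw [Subgroup.mem_centralizer_singleton_iff, map_pow]
      exact ((c0 l).pow_right _).eq.symm) _ rfl
  have c5 : (g * co i s * g⁻¹) * (g * co i s * g⁻¹) = 1 := by
    rw [← pow_two, conj_pow, ← map_pow, pow_two, s1, map_one, mul_one, mul_inv_cancel]
  have c6 : (bs fun l => x l ^ n l) ^ 3 = 1 := by
    rw [← map_pow, ← map_one bs]
    congr 1
    ext1 l
    rw [Pi.pow_apply, ← pow_mul, mul_comm, pow_mul, ← (hx l).orderOf, pow_orderOf_eq_one, one_pow]
    rfl
  have c7 : (g * co i s * g⁻¹) f = (bs fun l => x l ^ n l) f := funext fun l => (hn l).symm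
  have c8 : (g * co i s * g⁻¹) f ≠ f := fun h => b1 (by
    rw [Perm.mul_apply, Perm.mul_apply, ← Perm.eq_inv_iff_eq, co_eq_iff] at h
    rw [← s2, h])
  generalize g * co i s * g⁻¹ = w at c4 c5 c7 c8
  generalize (bs fun l => x l ^ n l) = p at c4 c6 c7
  have e1 : ∀ z, w (p z) = p (w z) := fun z => congrArg (· z) c4.eq
  have e2 : w (w f) = f := congrArg (· f) c5
  have e3 : p (p (p f)) = f := by simpa [pow_succ] using congrArg (· f) c6
  rw [c7, e1, c7] at e2
  rw [e2] at e3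
  exact c8 (c7.trans e3)

theorem card_modEq_fix {p : ℕ} [Fact p.Prime] {U X : Type*} [Group U] [MulAction U X] [Finite X]
    (hU : IsPGroup p U) (S : Set X) (hS : ∀ (u : U), ∀ x ∈ S, u • x ∈ S) :
    S.ncard ≡ {x ∈ S | ∀ u : U, u • x = x}.ncard [MOD p] := by
  let S' : SubMulAction U X := ⟨S, fun u x h => hS u x h⟩
  have := hU.card_modEq_card_fixedPoints S'
  rwa [Nat.card_congr (show MulAction.fixedPoints U S' ≃ {x ∈ S | ∀ u : U, u • x = x} from
    ⟨fun x => ⟨x.1.1, x.1.2, fun u => Subtype.ext_iff.1 (x.2 u)⟩,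
      fun x => ⟨⟨x.1, x.2.1⟩, fun u => Subtype.ext (x.2.2 u)⟩, fun _ => rfl, fun _ => rfl⟩)] at this

theorem ln_unique {i j : ι} {f g : ι → M} (h : ln i f g) (h' : ln j f g) (n : f ≠ g) : i = j :=
  by_contra fun e => n (funext fun l => by
    by_cases e' : l = i
    · exact h' l (e' ▸ e)
    · exact h l e')

variable (G) in
/-- The directions containing a pair. -/
def DS (f g : ι → M) : Set (Set ((ι → M) × (ι → M))) :=
  {R | (∃ w ∈ G, ∃ i, R = w • LS M i) ∧ (f, g) ∈ R}

theorem DS.smul {w : Perm (ι → M)} (hw : w ∈ G) {f g : ι → M} {R : Set ((ι → M) × (ι → M))}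
    (h : R ∈ DS G f g) : w • R ∈ DS G (w f) (w g) := by
  obtain ⟨⟨v, hv, i, rfl⟩, h⟩ := h
  exact ⟨⟨w * v, mul_mem hw hv, i, (mul_smul _ _ _).symm⟩,
    Set.smul_mem_smul_set (a := w) (b := (f, g)) h⟩

theorem DS.card_le {w : Perm (ι → M)} (hw : w ∈ G) (f g : ι → M) :
    (DS G f g).ncard ≤ (DS G (w f) (w g)).ncard :=
  Set.ncard_le_ncard_of_injOn (w • ·) (fun _ => DS.smul hw) (MulAction.injective w).injOn

theorem Hy.count (H : Hy G) (f g : ι → M) :
    (DS G f g).ncard ≡ {R | ∃ j, ln j f g ∧ R = LS M j}.ncard [MOD 3] := by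
  choose x x1 x2 x3 using fun l => exists_three H.five (f l) (g l)
  let P : Subgroup (Perm (ι → M)) := (Subgroup.pi Set.univ fun l => Subgroup.zpowers (x l)).map bs
  have p3 : IsPGroup 3 P := fun ⟨_, τ, hτ, rfl⟩ => ⟨1, Subtype.ext (by
    change bs τ ^ 3 ^ 1 = 1
    rw [← map_pow, ← map_one bs]
    congr 1
    ext1 l
    obtain ⟨n, hn⟩ := hτ l trivial
    rw [Pi.pow_apply, ← hn, pow_one, ← zpow_natCast, ← zpow_mul, mul_comm, zpow_mul, zpow_natCast,
      ← (x1 l).orderOf, pow_orderOf_eq_one, one_zpow]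
    rfl)⟩
  have le : ∀ K : Subgroup (Perm (ι → M)), (∀ l, co l (x l) ∈ K) → P ≤ K := by
    rintro K hK _ ⟨τ, hτ, rfl⟩
    refine bs_mem fun l => ?_
    obtain ⟨n, hn⟩ := hτ l trivial
    rw [← hn, map_zpow]
    exact zpow_mem (hK l) n
  have := card_modEq_fix p3 (DS G f g) fun u R hR => by
    have := DS.smul (le G (fun l => H.alt l _ (x1 l).sign) u.2) hR
    rwa [show u.1 f = f from le (MulAction.stabilizer _ f) (fun l => co_eq_iff.2 (x2 l)) u.2,
      show u.1 g = g from le (MulAction.stabilizer _ g) (fun l => co_eq_iff.2 (x3 l)) u.2] at this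
  convert this using 2
  ext R
  refine ⟨?_, fun ⟨⟨⟨w, hw, i, e⟩, h1⟩, h2⟩ => ?_⟩
  · rintro ⟨j, hj, rfl⟩
    exact ⟨⟨⟨1, one_mem _, j, (one_smul _ _).symm⟩, hj⟩, fun u =>
      le (MulAction.stabilizer _ (LS M j)) (fun l => co_smul_LS j l _) u.2⟩
  · obtain ⟨j, hj⟩ := H.std hw x1 fun l => e ▸ h2 ⟨co l (x l), _, fun n _ => by
      by_cases e : n = l
      · subst e; simp
      · simp [e], rfl⟩
    rw [← e] at hj
    exact ⟨j, by rwa [hj] at h1, hj⟩

theorem Hy.adj (H : Hy G) {w : Perm (ι → M)} (hw : w ∈ G) {f g : ι → M} {i : ι} (h : ln i f g) :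
    ∃ j, ln j (w f) (w g) := by
  by_cases e : f = g
  · exact ⟨i, e ▸ ln.refl _ _⟩
  by_contra hn
  have h1 := H.count f g
  have h2 := H.count (w f) (w g)
  have h3 := DS.card_le (inv_mem hw) (w f) (w g)
  rw [ia, ia] at h3
  rw [show {R | ∃ j, ln j f g ∧ R = LS M j} = {LS M i} from Set.ext fun R =>
    ⟨fun ⟨j, a, b⟩ => ln_unique h a e ▸ b, fun b => ⟨i, h, b⟩⟩, Set.ncard_singleton] at h1
  rw [show {R | ∃ j, ln j (w f) (w g) ∧ R = LS M j} = ∅ from
    Set.eq_empty_of_forall_notMem fun R ⟨j, a, _⟩ => hn ⟨j, a⟩, Set.ncard_empty,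
    le_antisymm h3 (DS.card_le hw f g)] at h2
  exact absurd (h1.symm.trans h2) (by decide)

/-- The automorphisms of the Hamming graph. -/
theorem hamming (h2 : 2 ≤ Fintype.card M) {w : Perm (ι → M)}
    (h : ∀ i f g, ln i f g → ∃ j, ln j (w f) (w g))
    (h' : ∀ i f g, ln i (w f) (w g) → ∃ j, ln j f g) :
    ∃ (π : Perm ι) (τ : ι → Perm M), ∀ f i, w f i = τ i (f (π.symm i)) := by
  have ot : ∀ a : M, ∃ b, b ≠ a := Fintype.exists_ne_of_one_lt_card (by omega)
  have un : ∀ (f : ι → M) i c, c ≠ f i → f ≠ update f i c := fun f i c n e =>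
    n (by simpa using (congrFun e i).symm)
  have df : ∀ {j : ι} {f g : ι → M}, ln j f g → f ≠ g → f j ≠ g j := fun {j f g} a n e =>
    n (funext fun l => by
      by_cases e' : l = j
      · rwa [e']
      · exact a l e')
  have tri : ∀ {i j l : ι} {f g k : ι → M}, ln i f g → f ≠ g → ln j f k → f ≠ k → ln l g k → i = j :=
    fun {i j l f g k} a1 n1 a2 n2 a3 => by_contra fun n => by
      have e1 : i = l := by_contra fun e => df a1 n1 ((a2 i n).trans (a3 i e).symm)
      exact df a2 n2 ((a1 j (Ne.symm n)).trans (a3 j (e1 ▸ Ne.symm n)))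
  have a : ∀ f i, ∃ j, ∀ g, ln i f g → ln j (w f) (w g) := fun f i => by
    obtain ⟨c, hc⟩ := ot (f i)
    obtain ⟨j, hj⟩ := h i f _ (ln_update i f c)
    refine ⟨j, fun g hg => ?_⟩
    by_cases e : f = g
    · exact e ▸ ln.refl _ _
    obtain ⟨j', h1⟩ := h i f g hg
    obtain ⟨l, h3⟩ := h i _ g ((ln_update i f c).symm.trans hg)
    exact tri hj (w.injective.ne (un f i c hc)) h1 (w.injective.ne e) h3 ▸ h1
  choose π hπ using a
  have inj : ∀ f, Injective (π f) := fun f i l e => by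
    obtain ⟨c, hc⟩ := ot (f i)
    obtain ⟨d, hd⟩ := ot (f l)
    obtain ⟨n, hn⟩ := h' _ _ _ ((hπ f i _ (ln_update i f c)).symm.trans
      (e ▸ hπ f l _ (ln_update l f d)))
    exact tri (ln_update i f c) (un f i c hc) (ln_update l f d) (un f l d hd) hn
  have cst : ∀ f f', π f = π f' := fun f f' => conn (r := fun f f' => π f = π f')
    ⟨fun _ => rfl, Eq.symm, Eq.trans⟩ fun l _ f c => funext fun i => by
      obtain ⟨e, he⟩ := ot (update f l c i)
      have n := w.injective.ne (un _ i e he)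
      have a1 := hπ _ i _ (ln_update i (update f l c) e)
      by_cases e1 : l = i
      · subst e1
        exact ln_unique ((hπ f l _ (ln_update l f c)).symm.trans
          (hπ f l _ ((ln_update l f c).trans (ln_update l _ e)))) a1 n
      by_contra n1
      rw [update_of_ne (Ne.symm e1)] at he
      have a2 := hπ f i _ (ln_update i f e)
      have a3 := hπ f l _ (ln_update l f c)
      have a4 := hπ _ l _ (ln_update l (update f i e) c)
      rw [update_comm (Ne.symm e1)] at a4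
      have n2 : π f i ≠ π f l := fun h => e1 (inj f h).symm
      have e2 := (a3 _ n2).trans (a1 _ n1)
      have e3 : π f i = π (update f i e) l := by_contra fun h =>
        df a2 (w.injective.ne (un f i e he)) (e2.trans (a4 _ h).symm)
      have e4 : w f = w (update (update f l c) i e) := by_contra fun h =>
        df (a2.trans (e3 ▸ a4)) h e2
      exact he (by simpa using (congrFun (w.injective e4) i).symm)
  obtain ⟨a₀⟩ : Nonempty M := Fintype.card_pos_iff.1 (by omega)
  let p : Perm ι := Equiv.ofBijective (π fun _ => a₀) (Finite.injective_iff_bijective.1 (inj _))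
  have hp : ∀ i f g, ln i f g → ln (p i) (w f) (w g) := fun i f g e => by
    have := hπ f i g e
    rwa [cst f fun _ => a₀] at this
  have k : ∀ i f g, f i = g i → w f (p i) = w g (p i) := fun i f g e =>
    conn (r := fun f g => w f (p i) = w g (p i)) ⟨fun _ => rfl, Eq.symm, Eq.trans⟩
      fun l n f' c => hp l _ _ (ln_update l f' c) _ (p.injective.ne fun h => n (h ▸ e))
  refine ⟨p, fun j => Equiv.ofBijective (fun c => w (fun _ => c) j)
    (Finite.injective_iff_bijective.1 fun c d e => by_contra fun n => ?_), fun f j => ?_⟩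
  · obtain ⟨i, rfl⟩ := p.surjective j
    exact df (hp i _ _ (ln_update i (fun _ => c) d)) (w.injective.ne (un _ i d (Ne.symm n)))
      (e.trans (k i _ _ (by simp)))
  · obtain ⟨i, rfl⟩ := p.surjective j
    exact k i _ _ (by simp)

theorem Hy.main (H : Hy G) {w : Perm (ι → M)} (hw : w ∈ G) :
    ∃ (π : Perm ι) (τ : ι → Perm M), ∀ f i, w f i = τ i (f (π.symm i)) :=
  hamming (by have := H.five; omega) (fun i f g => H.adj hw) fun i f g h => by
    simpa only [ia] using H.adj (inv_mem hw) h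

end Cfsg.Agent.PA
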