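import Cfsg.Agent.PA.Main

/-! The wreath product in product action: parity and maximality. -/

set_option autoImplicit false
set_option linter.unusedSectionVars false
set_option linter.unusedVariables false
set_option linter.unusedSimpArgs false

namespace Cfsg.Agent.PA

open Equiv Finset
open Function hiding swap

variable {ι M : Type*} [Fintype ι] [DecidableEq ι] [Fintype M] [DecidableEq M]

variable (ι M) in
/-- The wreath product in product action. -/
def Wr : Subgroup (Perm (ι → M)) where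
  carrier := {σ | ∃ (π : Perm ι) (τ : ι → Perm M), ∀ f i, σ f i = τ i (f (π.symm i))}
  one_mem' := ⟨1, 1, fun _ _ => rfl⟩
  mul_mem' := fun ⟨π, τ, h⟩ ⟨π', τ', h'⟩ => ⟨π * π', fun i => τ i * τ' (π.symm i), fun f i => by
    rw [Perm.mul_apply, h, h']; rfl⟩
  inv_mem' := fun {σ} ⟨π, τ, h⟩ => ⟨π.symm, fun i => (τ (π i))⁻¹, fun f i => by
    rw [Perm.eq_inv_iff_eq, symm_symm, ← ai σ f, h, ia, symm_apply_apply]⟩

theorem co_mem (i : ι) (σ : Perm M) : co i σ ∈ Wr ι M := ⟨1, _, fun _ _ => rfl⟩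

theorem sign_co (i : ι) (σ : Perm M) :
    (co i σ).sign = σ.sign ^ Fintype.card M ^ (Fintype.card ι - 1) := by
  rw [← tr_pc, ← card_rest (M := M) i, ← card_univ, ← prod_const, ← Perm.sign_prodCongrLeft]
  exact Perm.sign_permCongr _ _

theorem not_le_Wr (h5 : 5 ≤ Fintype.card M) (h2 : 2 ≤ Fintype.card ι) :
    ¬ alternatingGroup (ι → M) ≤ Wr ι M := fun h => by
  obtain ⟨a, b, n⟩ := Fintype.exists_pair_of_one_lt_card (show 1 < Fintype.card M by omega)
  obtain ⟨i, j, n'⟩ := Fintype.exists_pair_of_one_lt_card (show 1 < Fintype.card ι by omega)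
  have n1 : update (fun _ => a) i b ≠ fun _ => a := fun e => n (by simpa using (congrFun e i).symm)
  have n2 : (fun _ : ι => b) ≠ fun _ => a := fun e => n (congrFun e i).symm
  obtain ⟨z, z0, z1, -, z2⟩ := alt_fix (M := ι → M) (by
    rw [Fintype.card_fun]; exact h5.trans (Nat.le_self_pow (by omega) _)) n1 n1 n2 n2
  obtain ⟨π, τ, e⟩ := h (Perm.mem_alternatingGroup.2 z0)
  have e1 := e (fun _ => a) (π j)
  have e2 := e (update (fun _ => a) i b) (π j)
  rw [z2, symm_apply_apply, update_of_ne n'.symm, ← e1, z1] at e2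
  exact n e2.symm

/-- Interchanging two coordinates. -/
def cs (M : Type*) (i j : ι) : Perm (ι → M) :=
  Function.Involutive.toPerm (fun f l => f (swap i j l)) fun f => by simp

theorem cs_apply (i j : ι) (f : ι → M) (l : ι) : cs M i j f l = f (swap i j l) := rfl

theorem sign_cs {i j : ι} (h : i ≠ j) : (cs M i j).sign =
    (-1) ^ ((Fintype.card M ^ Fintype.card ι - Fintype.card M ^ (Fintype.card ι - 1)) / 2) := by
  rw [Perm.sign_of_pow_two_eq_one (by ext f l; simp [cs_apply, pow_two]), Fintype.card_fun, ← card_rest i]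
  congr 3
  refine Fintype.card_congr ⟨fun f l => f.1 l, fun y => ⟨fun l => if e : l = i then y ⟨j, h.symm⟩
    else y ⟨l, e⟩, funext fun l => ?_⟩, fun f => Subtype.ext (funext fun l => ?_),
    fun y => funext fun l => dif_neg l.2⟩
  · change dite (swap i j l = i) _ _ = _
    by_cases e : l = i
    · simp [e, h.symm]
    by_cases e' : l = j
    · simp [e', h.symm]
    · simp [swap_apply_of_ne_of_ne e e']
  · by_cases e : l = i
    · simpa [e, cs_apply] using congrFun f.2 i
    · simp [e]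

theorem even_sw (h5 : 5 ≤ Fintype.card M) (h2 : 2 ≤ Fintype.card ι)
    (h : ¬ (Fintype.card ι = 2 ∧ Fintype.card M % 4 = 2)) (i j : ι) :
    ∃ w : Perm (ι → M), w.sign = 1 ∧ ∃ τ : ι → Perm M, ∀ f l, w f l = τ l (f (swap i j l)) := by
  obtain rfl | n := eq_or_ne i j
  · exact ⟨1, by simp, 1, by simp⟩
  rcases Int.units_eq_one_or (cs M i j).sign with h1 | h1
  · exact ⟨_, h1, 1, fun _ _ => rfl⟩
  rcases Nat.even_or_odd (Fintype.card M) with h3 | h3
  · exfalso
    obtain ⟨c, hc⟩ : 4 ∣ Fintype.card M ^ Fintype.card ι - Fintype.card M ^ (Fintype.card ι - 1) := by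
      have : 4 ∣ Fintype.card M ^ (Fintype.card ι - 1) := by
        by_cases e : Fintype.card ι = 2
        · rw [Nat.even_iff] at h3
          rw [e, pow_one]; omega
        · exact (pow_dvd_pow_of_dvd h3.two_dvd 2).trans (pow_dvd_pow _ (by omega))
      exact Nat.dvd_sub (this.trans (pow_dvd_pow _ (by omega))) this
    rw [sign_cs n, hc, show 4 * c / 2 = 2 * c by omega, pow_mul] at h1
    simp at h1
  · obtain ⟨a, b, n⟩ := Fintype.exists_pair_of_one_lt_card (show 1 < Fintype.card M by omega)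
    exact ⟨co i (swap a b) * cs M i j, by
      rw [map_mul, h1, sign_co, Perm.sign_swap n, h3.pow.neg_one_pow]; simp, _, fun _ _ => rfl⟩

theorem coatom_alt (h5 : 5 ≤ Fintype.card M) (h2 : 2 ≤ Fintype.card ι)
    (h : ¬ (Fintype.card ι = 2 ∧ Fintype.card M % 4 = 2)) :
    IsCoatom ((Wr ι M).subgroupOf (alternatingGroup (ι → M))) := by
  refine ⟨fun e => not_le_Wr h5 h2 (Subgroup.subgroupOf_eq_top.1 e), fun b hb => by_contra fun n => ?_⟩
  have m : ∀ w ∈ Wr ι M, w.sign = 1 → w ∈ b.map (alternatingGroup (ι → M)).subtype :=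
    fun w hw s => ⟨⟨w, s⟩, hb.le hw, rfl⟩
  have H : Hy (b.map (alternatingGroup (ι → M)).subtype) := ⟨h5, h2,
    fun i σ s => m _ (co_mem i σ) (by rw [sign_co, s, one_pow]), fun i j => by
      obtain ⟨w, s, τ, e⟩ := even_sw h5 h2 h i j
      exact ⟨w, m w ⟨swap i j, τ, e⟩ s, τ, e⟩, fun e => n (eq_top_iff.2 fun w _ => by
      obtain ⟨v, hv, e'⟩ := e w.2
      exact Subtype.ext e' ▸ hv)⟩
  exact hb.not_ge fun w hw => H.main ⟨w, hw, rfl⟩

theorem coatom_sym (h5 : 5 ≤ Fintype.card M) (h2 : 2 ≤ Fintype.card ι)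
    (h : ∃ σ ∈ Wr ι M, σ.sign = -1) : IsCoatom (Wr ι M) := by
  refine ⟨fun e => not_le_Wr h5 h2 (e ▸ le_top), fun b hb => by_contra fun n => ?_⟩
  have H : Hy b := ⟨h5, h2, fun i σ s => hb.le (co_mem i σ),
    fun i j => ⟨cs M i j, hb.le ⟨swap i j, 1, fun _ _ => rfl⟩, 1, fun _ _ => rfl⟩,
    fun e => n (eq_top_iff.2 fun w _ => by
      obtain ⟨σ, hσ, s⟩ := h
      rcases Int.units_eq_one_or w.sign with h1 | h1
      · exact e h1
      · exact (mul_mem_cancel_left (hb.le hσ)).1 (e (show (σ * w).sign = 1 by simp [s, h1])))⟩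
  exact hb.not_ge fun w hw => H.main hw

end Cfsg.Agent.PA
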