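import Cfsg.Agent.PA.JC

/-! Overgroups of `Alt(M) × E` on `M × Y`: elements fixing two slabs preserve the lines. -/

set_option autoImplicit false
set_option linter.unusedSectionVars false
set_option linter.unusedVariables false
set_option linter.unusedSimpArgs false

namespace Cfsg.Agent.PA

open Equiv Finset

variable {M Y : Type*} [Fintype M] [DecidableEq M] [Fintype Y] [DecidableEq Y]
  {G : Subgroup (Perm (M × Y))}

/-- The product of two permutations. -/
def pc (ρ : Perm M) (ζ : Perm Y) : Perm (M × Y) := Equiv.prodCongr ρ ζ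

@[simp] theorem pc_apply (ρ : Perm M) (ζ : Perm Y) (p : M × Y) : pc ρ ζ p = (ρ p.1, ζ p.2) := rfl

theorem pc_mul (ρ ρ' : Perm M) (ζ ζ' : Perm Y) : pc ρ ζ * pc ρ' ζ' = pc (ρ * ρ') (ζ * ζ') := rfl

theorem pc_inv (ρ : Perm M) (ζ : Perm Y) : (pc ρ ζ)⁻¹ = pc ρ⁻¹ ζ⁻¹ := rfl

theorem pc_one : pc (1 : Perm M) (1 : Perm Y) = 1 := rfl

section five
variable (h5 : 5 ≤ Fintype.card M)
include h5

theorem fresh (a b c d : M) : ∃ x, x ≠ a ∧ x ≠ b ∧ x ≠ c ∧ x ≠ d := by
  obtain ⟨x, -, hx⟩ := exists_mem_notMem_of_card_lt_card (s := {a, b, c, d}) (t := univ)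
    (by have := card_le_four (a := a) (b := b) (c := c) (d := d); rw [card_univ]; omega)
  exact ⟨x, by simpa [not_or] using hx⟩

theorem even_ext (ρ : Perm M) (a b c : M) :
    ∃ σ : Perm M, σ.sign = 1 ∧ σ a = ρ a ∧ σ b = ρ b ∧ σ c = ρ c := by
  rcases Int.units_eq_one_or ρ.sign with h | h
  · exact ⟨ρ, h, rfl, rfl, rfl⟩
  obtain ⟨u, u1, u2, u3, -⟩ := fresh h5 a b c c
  obtain ⟨v, v1, v2, v3, v4⟩ := fresh h5 a b c u
  refine ⟨ρ * swap u v, by simp [h, v4.symm], ?_, ?_, ?_⟩ <;>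
    rw [Perm.mul_apply, swap_apply_of_ne_of_ne] <;> first | assumption | (symm; assumption)

theorem alt_fix {a b c d : M} (h1 : c ≠ a) (h2 : c ≠ b) (h3 : d ≠ a) (h4 : d ≠ b) :
    ∃ σ : Perm M, σ.sign = 1 ∧ σ a = a ∧ σ b = b ∧ σ c = d := by
  simpa [swap_apply_of_ne_of_ne h1.symm h3.symm, swap_apply_of_ne_of_ne h2.symm h4.symm] using
    even_ext h5 (swap c d) a b c

theorem alt_two {a b c d : M} (h1 : a ≠ b) (h2 : c ≠ d) :
    ∃ σ : Perm M, σ.sign = 1 ∧ σ a = c ∧ σ b = d := by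
  obtain ⟨σ, h, e1, e2, -⟩ := even_ext h5 (swap (swap a c b) d * swap a c) a b b
  refine ⟨σ, h, e1.trans ?_, e2.trans (by simp)⟩
  rw [Perm.mul_apply, swap_apply_left, swap_apply_of_ne_of_ne _ h2]
  exact fun e => h1 ((swap a c).injective (by rw [← e, swap_apply_left]))

/-- A three-cycle fixing two given points. -/
theorem exists_three (a b : M) : ∃ x : Perm M, x.IsThreeCycle ∧ x a = a ∧ x b = b := by
  obtain ⟨u, u1, u2, -, -⟩ := fresh h5 a b b b
  obtain ⟨v, v1, v2, v3, -⟩ := fresh h5 a b u u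
  obtain ⟨w, w1, w2, w3, w4⟩ := fresh h5 a b u v
  refine ⟨swap u v * swap u w, Perm.isThreeCycle_swap_mul_swap_same v3.symm w3.symm w4.symm, ?_, ?_⟩
  · rw [Perm.mul_apply, swap_apply_of_ne_of_ne u1.symm w1.symm, swap_apply_of_ne_of_ne u1.symm v1.symm]
  · rw [Perm.mul_apply, swap_apply_of_ne_of_ne u2.symm w2.symm, swap_apply_of_ne_of_ne u2.symm v2.symm]

end five

variable (G) in
/-- The standing hypotheses. -/
structure St : Prop where
  five : 5 ≤ Fintype.card M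
  alt : ∀ σ : Perm M, σ.sign = 1 → pc σ 1 ∈ G
  no3 : ∀ w ∈ G, w.support.card ≤ 3 → w = 1
  prim : ∀ r : M × Y → M × Y → Prop, Equivalence r → (∀ g ∈ G, ∀ p q, r p q → r (g p) (g q)) →
    (∀ p q, r p q → p = q) ∨ ∀ p q, r p q
  primY : ∀ r : Y → Y → Prop, Equivalence r →
    (∀ ρ ζ, pc ρ ζ ∈ G → ∀ y y', r y y' → r (ζ y) (ζ y')) → (∀ y y', r y y' → y = y') ∨ ∀ y y', r y y'
  size : (Fintype.card Y = Fintype.card M ∧ ∀ y y' y'' : Y, y' ≠ y → y'' ≠ y →
    ∃ ζ, pc 1 ζ ∈ G ∧ ζ y = y ∧ ζ y' = y'') ∨ 2 * Fintype.card M ≤ Fintype.card Y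
  fixY : ∃ ζ, pc 1 ζ ∈ G ∧ ζ ≠ 1 ∧ Fintype.card Y < 3 * (univ.filter fun y => ζ y = y).card

/-- Two slabs. -/
def sl (Y : Type*) [Fintype Y] (a b : M) : Finset (M × Y) := {a, b} ×ˢ univ

theorem mem_sl {a b : M} {p : M × Y} : p ∈ sl Y a b ↔ p.1 = a ∨ p.1 = b := by simp [sl]

theorem card_sl {a b : M} (h : a ≠ b) : (sl Y a b).card = 2 * Fintype.card Y := by
  rw [sl, card_product, card_pair h, card_univ]

theorem support_pc (x : Perm M) : (pc x (1 : Perm Y)).support = x.support ×ˢ univ := by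
  ext ⟨a, y⟩; simp

namespace St
variable (S : St G)
include S

theorem primY' (a b c : M) {r : Y → Y → Prop} (hr : Equivalence r)
    (h : ∀ ρ ζ, pc ρ ζ ∈ G → ρ a = a → ρ b = b → ρ c = c → ∀ y y', r y y' → r (ζ y) (ζ y')) :
    (∀ y y', r y y' → y = y') ∨ ∀ y y', r y y' := S.primY r hr fun ρ ζ hg => by
  obtain ⟨σ, h0, h1, h2, h3⟩ := even_ext S.five ρ a b c
  refine h (σ⁻¹ * ρ) ζ ?_ (by rw [Perm.mul_apply, ← h1, ia]) (by rw [Perm.mul_apply, ← h2, ia])
    (by rw [Perm.mul_apply, ← h3, ia])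
  simpa [pc_inv, pc_mul] using mul_mem (inv_mem (S.alt σ h0)) hg

theorem le_card : Fintype.card M ≤ Fintype.card Y := by
  rcases S.size with h | h
  · exact h.1.ge
  · omega

theorem jc_all {a b : M} (hab : a ≠ b) (h : JC G (sl Y a b)) {c d : M} (hcd : c ≠ d) :
    JC G (sl Y c d) := by
  obtain ⟨σ, h0, h1, h2⟩ := alt_two S.five hab hcd
  convert h.image (S.alt σ h0) using 1
  ext p
  rw [mem_image_perm, mem_sl, mem_sl, pc_inv, pc_apply, Perm.inv_eq_iff_eq, Perm.inv_eq_iff_eq,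
    h1, h2]

theorem not_high {t : ℕ} (h : ∀ Z : Finset (M × Y), Z.card < t → JC G Z)
    (h1 : 3 * Fintype.card Y + 3 < 2 * t) : False := by
  have h5 := S.five
  have := S.le_card
  obtain ⟨a⟩ : Nonempty M := Fintype.card_pos_iff.1 (by omega)
  obtain ⟨x, hx, -⟩ := exists_three h5 a a
  have e : (pc x (1 : Perm Y)).support.card = 3 * Fintype.card Y := by
    rw [support_pc, card_product, hx.card_support, card_univ]
  obtain ⟨w, w1, w2, w3⟩ := exists_small h (S.alt x hx.sign) (fun h => by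
    rw [h, Perm.support_one, card_empty] at e; omega) (by omega) (by
      rw [e, Fintype.card_prod]; nlinarith)
  exact w2 (S.no3 w w1 w3)

variable {t s : ℕ} (T : Sys G (2 * Fintype.card Y) t s) (J : ∀ c d : M, c ≠ d → JC G (sl Y c d))
include T J

theorem sub_sl {B : Finset (M × Y)} (b1 : JC G B) (b2 : B.card = s) {c d : M} (hcd : c ≠ d)
    {Z : Finset (M × Y)} (z1 : t ≤ Z.card) (z2 : Z ⊆ B) (z3 : ∀ z ∈ Z, z.1 = c ∨ z.1 = d)
    {p : M × Y} (hp : p ∈ B) : p.1 = c ∨ p.1 = d :=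
  mem_sl.1 (T.sub b1 b2 (J c d hcd) (card_sl hcd).le z1 z2 (fun z hz => mem_sl.2 (z3 z hz)) hp)

theorem two_le : 2 ≤ t := by
  have h5 := S.five
  have := S.le_card
  obtain ⟨a⟩ : Nonempty M := Fintype.card_pos_iff.1 (by omega)
  obtain ⟨y⟩ : Nonempty Y := Fintype.card_pos_iff.1 (by omega)
  by_contra hc
  have lt := T.lt
  obtain rfl | rfl : t = 0 ∨ t = 1 := by omega
  · obtain ⟨B, b1, b2, -⟩ := T.ex ∅ rfl
    obtain ⟨p, hp⟩ := card_pos.1 (show 0 < B.card by omega)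
    obtain ⟨b, h1, -⟩ := fresh h5 p.1 a a a
    obtain ⟨c, h2, h3, -⟩ := fresh h5 p.1 b a a
    exact (S.sub_sl T J b1 b2 h3 (Z := ∅) le_rfl (empty_subset _) (by simp) hp).elim
      (fun h => h2 h.symm) fun h => h1 h.symm
  have ex : ∀ p : M × Y, ∃ B, JC G B ∧ B.card = s ∧ p ∈ B := fun p => by
    simpa using T.ex {p} rfl
  have sub : ∀ {B B' : Finset (M × Y)} {p}, JC G B → B.card = s → JC G B' → B'.card = s → p ∈ B →
      p ∈ B' → B ⊆ B' := fun {B B' p} b1 b2 c1 c2 h h' => T.sub b1 b2 c1 (c2 ▸ T.le) (Z := {p})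
        (by simp) (by simpa) (by simpa)
  obtain ⟨B, b1, b2, b3⟩ := ex (a, y)
  rcases S.prim (fun p q => ∃ B, JC G B ∧ B.card = s ∧ p ∈ B ∧ q ∈ B)
    ⟨fun p => (ex p).imp fun B h => ⟨h.1, h.2.1, h.2.2, h.2.2⟩,
      fun ⟨B, h1, h2, h3, h4⟩ => ⟨B, h1, h2, h4, h3⟩,
      fun ⟨B, h1, h2, h3, h4⟩ ⟨B', c1, c2, c3, c4⟩ => ⟨B', c1, c2, sub h1 h2 c1 c2 h4 c3 h3, c4⟩⟩
    (fun g hg p q ⟨B, h1, h2, h3, h4⟩ => ⟨_, h1.image hg, by rw [card_image_perm, h2],
      mem_image_of_mem _ h3, mem_image_of_mem _ h4⟩) with h | h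
  · obtain ⟨q, hq, hq'⟩ := exists_mem_ne (show 1 < B.card by omega) (a, y)
    exact hq' (h _ _ ⟨B, b1, b2, hq, b3⟩)
  · obtain ⟨q, -, hq⟩ := exists_mem_notMem_of_card_lt_card (s := B) (t := univ) (by
      have := T.big
      have := T.le
      rw [card_univ]; omega)
    obtain ⟨B', c1, c2, c3, c4⟩ := h (a, y) q
    exact hq (sub c1 c2 b1 b2 c3 b3 c4)

/-- A block through two points of a line and otherwise points of a third slab. -/
theorem line_block {a c c' : M} (h1 : c ≠ a) (h2 : c' ≠ a) (h3 : c ≠ c') (y : Y)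
    {Z : Finset (M × Y)} (z1 : Z.card + 2 = t) (z2 : ∀ z ∈ Z, z.1 = a) :
    ∃ B, JC G B ∧ B.card = s ∧ Z ⊆ B ∧ (∀ p ∈ B, p.1 = a → p ∈ Z) ∧ ∀ d, d ≠ a → (d, y) ∈ B := by
  have cd : ∀ p q : M × Y, p ≠ q → p ∉ Z → q ∉ Z → (insert p (insert q Z)).card = t :=
    fun p q e hp hq => by
      rw [card_insert_of_notMem (by simp [e, hp]), card_insert_of_notMem hq]; omega
  have nz : ∀ p : M × Y, p.1 ≠ a → p ∉ Z := fun p h hp => h (z2 p hp)
  obtain ⟨B, b1, b2, b3⟩ := T.ex _ (cd (c, y) (c', y) (by simp [h3]) (nz _ h1) (nz _ h2))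
  have m1 : (c, y) ∈ B := b3 (by simp)
  have m2 : (c', y) ∈ B := b3 (by simp)
  have m3 : Z ⊆ B := fun z hz => b3 (by simp [hz])
  have k1 : ∀ p ∈ B, p.1 = a → p ∈ Z := fun p hp e => by_contra fun hn =>
    (S.sub_sl T J b1 b2 h1.symm (cd p (c, y) (fun h => h1 (by rw [← e, h])) hn (nz _ h1)).ge
      (insert_subset hp (insert_subset m1 m3)) (by
        simp only [mem_insert]
        rintro _ (rfl | rfl | h)
        exacts [Or.inl e, Or.inr rfl, Or.inl (z2 _ h)]) m2).elim h2 h3.symm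
  have k2 : ∀ p ∈ B, ∀ q ∈ B, p.1 ≠ a → p.1 = q.1 → p = q := fun p hp q hq n e => by_contra fun hn => by
    have := fun r => S.sub_sl T J b1 b2 n.symm (cd p q hn (nz _ n) (nz _ (e ▸ n))).ge
      (insert_subset hp (insert_subset hq m3)) (by
        simp only [mem_insert]
        rintro _ (rfl | rfl | h)
        exacts [Or.inr rfl, Or.inr e.symm, Or.inl (z2 _ h)]) (p := r)
    exact h3 (((this _ m1).resolve_left h1).trans ((this _ m2).resolve_left h2).symm)
  obtain ⟨⟨d, y'⟩, hp, hp'⟩ := exists_mem_notMem_of_card_lt_card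
    (s := insert (c, y) (insert (c', y) Z)) (t := B)
    (by rw [cd (c, y) (c', y) (by simp [h3]) (nz _ h1) (nz _ h2), b2]; exact T.lt)
  simp only [mem_insert, not_or] at hp'
  have d1 : d ≠ a := fun e => hp'.2.2 (k1 _ hp e)
  have d2 : d ≠ c := fun e => hp'.1 (k2 _ hp _ m1 d1 e)
  have d3 : d ≠ c' := fun e => hp'.2.1 (k2 _ hp _ m2 d1 e)
  have inv : ∀ (σ : Perm M) (p q : M × Y), σ.sign = 1 → σ a = a → p ≠ q → p.1 ≠ a → q.1 ≠ a →
      p ∈ B → q ∈ B → (σ p.1, p.2) ∈ B → (σ q.1, q.2) ∈ B → ∀ r ∈ B, (σ r.1, r.2) ∈ B :=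
    fun σ p q s1 s2 e n1 n2 hp hq hp' hq' r hr => T.inv b1 b2 (S.alt σ s1)
      (cd p q e (nz _ n1) (nz _ n2)).ge (insert_subset hp (insert_subset hq m3)) (by
        simp only [mem_insert]
        rintro z (rfl | rfl | h)
        exacts [hp', hq', by
          rw [show pc σ 1 z = z from Prod.ext (by rw [pc_apply, z2 _ h, s2]) rfl]
          exact m3 h]) hr
  have k3 : ∀ e, e ≠ a → e ≠ c → e ≠ c' → (e, y') ∈ B := fun e e1 e2 e3 => by
    by_cases h : e = d
    · rwa [h]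
    have := inv (swap c c' * swap d e) (c, y) (c', y) (by simp [h3, Ne.symm h])
      (by simp [swap_apply_of_ne_of_ne, h1.symm, h2.symm, d1.symm, e1.symm]) (by simp [h3]) h1 h2
      m1 m2 (by simpa [swap_apply_of_ne_of_ne, d2.symm, e2.symm] using m2)
      (by simpa [swap_apply_of_ne_of_ne, d3.symm, e3.symm] using m1) _ hp
    simpa [swap_apply_of_ne_of_ne, e2, e3] using this
  obtain ⟨e, e1, e2, e3, e4⟩ := fresh S.five a c c' d
  have k4 := inv (swap c' e * swap c' d) (c, y) (d, y') (by simp [e3.symm, d3.symm])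
    (by simp [swap_apply_of_ne_of_ne, h2.symm, d1.symm, e1.symm]) (by simp [d2.symm]) h1 d1 m1 hp
    (by simpa [swap_apply_of_ne_of_ne, h3, d2.symm, e2.symm] using m1)
    (by simpa using k3 e e1 e2 e3) _ m2
  simp only [Perm.mul_apply, swap_apply_left, swap_apply_of_ne_of_ne d3 e4.symm] at k4
  obtain rfl : y = y' := (Prod.ext_iff.1 (k2 _ k4 _ hp d1 rfl)).2
  refine ⟨B, b1, b2, m3, k1, fun e e1 => ?_⟩
  by_cases e2 : e = c
  · rwa [e2]
  by_cases e3 : e = c'
  · rwa [e3]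
  exact k3 e e1 e2 e3

theorem lt_t : Fintype.card Y + 1 < t := by
  by_contra hc
  have h2 := S.two_le T J
  have h5 := S.five
  have := S.le_card
  obtain ⟨a⟩ : Nonempty M := Fintype.card_pos_iff.1 (by omega)
  obtain ⟨y⟩ : Nonempty Y := Fintype.card_pos_iff.1 (by omega)
  obtain ⟨c, c1, -⟩ := fresh h5 a a a a
  obtain ⟨c', c2, c3, -⟩ := fresh h5 a c a a
  obtain ⟨d, d1, d2, d3, -⟩ := fresh h5 a c c' a
  have cH : (({a} : Finset M) ×ˢ (univ : Finset Y)).card = Fintype.card Y := by simp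
  obtain ⟨Z, z1, z2⟩ := exists_subset_card_eq (s := ({a} : Finset M) ×ˢ (univ : Finset Y))
    (n := t - 2) (by omega)
  have z3 : ∀ z ∈ Z, z.1 = a := fun z hz => mem_singleton.1 (mem_product.1 (z1 hz)).1
  obtain ⟨B, b1, b2, b3, b4, b5⟩ := S.line_block T J c1 c2 c3.symm y (Z := Z) (by omega) z3
  by_cases ht : t = 2
  · exact (S.sub_sl T J b1 b2 c3.symm (Z := {(c, y), (c', y)})
      (by rw [card_pair (by simp [c3.symm]), ht]) (by simp [insert_subset_iff, b5, c1, c2])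
      (by simp) (b5 d d1)).elim d2 d3
  obtain ⟨z, hz⟩ := card_pos.1 (show 0 < Z.card by omega)
  obtain ⟨z', hz', hz''⟩ := exists_mem_notMem_of_card_lt_card (s := Z)
    (t := ({a} : Finset M) ×ˢ (univ : Finset Y)) (by omega)
  have a' : z'.1 = a := mem_singleton.1 (mem_product.1 hz').1
  have ce := card_erase_of_mem hz
  obtain ⟨B', e1, e2, e3, -, e5⟩ := S.line_block T J c1 c2 c3.symm y (Z := insert z' (Z.erase z))
    (by rw [card_insert_of_notMem (fun h => hz'' (mem_of_mem_erase h))]; omega) (by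
      simp only [mem_insert]
      rintro _ (rfl | h)
      exacts [a', z3 _ (mem_of_mem_erase h)])
  have nz : ∀ e, e ≠ a → (e, y) ∉ Z.erase z := fun e h hp => h (z3 _ (mem_of_mem_erase hp))
  refine hz'' (b4 _ (T.sub e1 e2 b1 (b2 ▸ T.le)
    (Z := insert (c, y) (insert (c', y) (insert (d, y) (Z.erase z)))) ?_ ?_ ?_
    (e3 (mem_insert_self _ _))) a')
  · rw [card_insert_of_notMem (by simp [c3.symm, d2.symm, nz c c1, -mem_erase]),
      card_insert_of_notMem (by simp [d3.symm, nz c' c2, -mem_erase]),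
      card_insert_of_notMem (nz d d1)]
    omega
  · exact insert_subset (e5 c c1) (insert_subset (e5 c' c2) (insert_subset (e5 d d1)
      ((subset_insert _ _).trans e3)))
  · exact insert_subset (b5 c c1) (insert_subset (b5 c' c2) (insert_subset (b5 d d1)
      ((erase_subset _ _).trans b3)))

theorem not_sys : False := by
  have h1 := S.lt_t T J
  have h5 := S.five
  have hN := S.le_card
  have lt := T.lt
  have le := T.le
  obtain ⟨a⟩ : Nonempty M := Fintype.card_pos_iff.1 (by omega)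
  obtain ⟨y⟩ : Nonempty Y := Fintype.card_pos_iff.1 (by omega)
  obtain ⟨b, hb, -⟩ := fresh h5 a a a a
  have hs : s = 2 * Fintype.card Y := by
    by_contra hs
    have := T.bound (X := sl Y b a) (fun B b1 b2 Z z1 z2 z3 =>
      T.sub b1 b2 (J b a hb) (card_sl hb).le z1 z2 z3) (by rw [card_sl hb]; omega)
    rw [card_sl hb] at this
    have := (Nat.mul_le_mul_left (t + 1) (show 2 ≤ s - t + 1 by omega)).trans this
    omega
  rcases S.size with ⟨h2, h3⟩ | h2
  · obtain ⟨C, c1, c2⟩ := exists_subset_card_eq (s := univ.erase a) (n := t - Fintype.card Y)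
      (by rw [card_erase_of_mem (mem_univ a), card_univ]; omega)
    have cA : (({a} : Finset M) ×ˢ (univ : Finset Y)).card = Fintype.card Y := by simp
    have dj : ∀ (D : Finset M) (E : Finset Y), a ∉ D →
        Disjoint (({a} : Finset M) ×ˢ (univ : Finset Y)) (D ×ˢ E) := fun D E h =>
      disjoint_left.2 fun p hp hq => h (by
        have : p.1 = a := mem_singleton.1 (mem_product.1 hp).1
        exact this ▸ (mem_product.1 hq).1)
    have aC : a ∉ C := fun h => by simpa using c1 h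
    have cZ : (({a} : Finset M) ×ˢ (univ : Finset Y) ∪ C ×ˢ {y}).card = t := by
      rw [card_union_of_disjoint (dj _ _ aC), cA, card_product, c2, card_singleton]; omega
    obtain ⟨B, b1, b2, b3⟩ := T.ex _ cZ
    obtain ⟨⟨d, y'⟩, hp, hp'⟩ := exists_mem_notMem_of_card_lt_card
      (s := ({a} : Finset M) ×ˢ (univ : Finset Y) ∪ (univ.erase a) ×ˢ {y}) (t := B) (by
        rw [card_union_of_disjoint (dj _ _ (by simp)), cA, card_product, card_singleton,
          card_erase_of_mem (mem_univ a), card_univ]; omega)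
    have d1 : d ≠ a := fun e => hp' (by simp [e])
    have d2 : y' ≠ y := fun e => hp' (by simp [e, d1])
    have k : ∀ y'', y'' ≠ y → (d, y'') ∈ B := fun y'' h => by
      obtain ⟨ζ, z1, z2, z3⟩ := h3 y y' y'' d2 h
      simpa [z3] using T.inv b1 b2 z1 cZ.ge b3 (fun z hz => b3 (by
        simp only [mem_union, mem_product, mem_singleton, mem_univ, and_true, pc_apply,
          Perm.one_apply] at hz ⊢
        exact hz.imp_right fun h => ⟨h.1, by rw [h.2, z2]⟩)) hp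
    have k2 : ∀ c ∈ C, c = d := fun c hc => (S.sub_sl T J b1 b2 d1.symm
      (Z := ({a} : Finset M) ×ˢ (univ : Finset Y) ∪ {d} ×ˢ univ.erase y) (by
        rw [card_union_of_disjoint (dj _ _ (by simpa using d1.symm)), cA, card_product,
          card_singleton, card_erase_of_mem (mem_univ y), card_univ]; omega)
      (union_subset (subset_union_left.trans b3) fun p hp => by
        have e1 := mem_singleton.1 (mem_product.1 hp).1
        have e2 := (mem_erase.1 (mem_product.1 hp).2).1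
        exact (show p = (d, p.2) from Prod.ext e1 rfl) ▸ k _ e2) (fun p hp => by
        simp only [mem_union, mem_product, mem_singleton] at hp
        exact hp.imp And.left And.left) (p := (c, y)) (b3 (by simp [hc]))).resolve_left
          fun e => aC (e ▸ hc)
    have := card_le_one.2 fun c hc c' hc' => (k2 c hc).trans (k2 c' hc').symm
    omega
  by_cases h3 : 3 * Fintype.card Y + 3 < 2 * t
  · exact S.not_high T.jc h3
  have h4 := T.bound (X := univ) (fun B _ _ _ _ _ _ => subset_univ B) (by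
    have := T.big
    rw [card_univ]; omega)
  rw [card_univ, Fintype.card_prod] at h4
  have h6 := Nat.mul_le_mul (show Fintype.card Y + 3 ≤ t + 1 by omega)
    (show Fintype.card Y - 1 ≤ 2 * (s - t + 1) by omega)
  obtain ⟨N, hN'⟩ : ∃ N, Fintype.card Y = N + 1 := ⟨Fintype.card Y - 1, by omega⟩
  rw [hN'] at h2 h4 h6
  simp only [Nat.add_sub_cancel] at h6
  nlinarith

omit T J in
theorem not_jc {a b : M} (hab : a ≠ b) : ¬ JC G (sl Y a b) := fun h => by
  have h5 := S.five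
  have hN := S.le_card
  rcases exists_sys (n₀ := 2 * Fintype.card Y) (by rw [Fintype.card_prod]; nlinarith) h
    (card_sl hab) with h1 | ⟨t, s, T⟩
  · exact S.not_high h1 (by omega)
  · exact S.not_sys T fun c d => S.jc_all hab h

omit T J in
/-- An element fixing two slabs preserves the lines. -/
theorem snd_of_fix {a b : M} (hab : a ≠ b) {g : Perm (M × Y)} (hg : g ∈ G)
    (h : ∀ p ∈ sl Y a b, g p = p) (p : M × Y) : (g p).2 = p.2 := by
  obtain ⟨c, c1, c2, -⟩ := fresh S.five a b a a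
  have mv : ∀ p ∉ sl Y a b, ∃ k ∈ G, (∀ r ∈ sl Y a b, k r = r) ∧ k p = (c, p.2) := fun p hp => by
    rw [mem_sl, not_or] at hp
    obtain ⟨σ, s0, s1, s2, s3⟩ := alt_fix S.five hp.1 hp.2 c1 c2
    refine ⟨_, S.alt σ s0, fun r hr => ?_, by simp [s3]⟩
    rcases mem_sl.1 hr with e | e <;> exact Prod.ext (by simp [e, s1, s2]) rfl
  have iv : ∀ {k : Perm (M × Y)}, (∀ r ∈ sl Y a b, k r = r) → ∀ r ∈ sl Y a b, k⁻¹ r = r :=
    fun h r hr => by rw [Perm.inv_eq_iff_eq, h r hr]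
  rcases S.primY' a b c (r := fun y y' => ∃ k ∈ G, (∀ r ∈ sl Y a b, k r = r) ∧ k (c, y) = (c, y'))
    ⟨fun y => ⟨1, one_mem _, fun _ _ => rfl, rfl⟩,
      fun ⟨k, k1, k2, k3⟩ => ⟨k⁻¹, inv_mem k1, iv k2, by rw [← k3, ia]⟩,
      fun ⟨k, k1, k2, k3⟩ ⟨l, l1, l2, l3⟩ => ⟨l * k, mul_mem l1 k1,
        fun r hr => by rw [Perm.mul_apply, k2 r hr, l2 r hr], by rw [Perm.mul_apply, k3, l3]⟩⟩
    (fun ρ ζ hw e1 e2 e3 y y' ⟨k, k1, k2, k3⟩ => ⟨pc ρ ζ * k * (pc ρ ζ)⁻¹,
      mul_mem (mul_mem hw k1) (inv_mem hw), fun r hr => by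
        rw [Perm.mul_apply, Perm.mul_apply, k2, ai]
        rw [mem_sl] at hr ⊢
        simpa [pc_inv, symm_apply_eq, e1, e2] using hr, by
        rw [Perm.mul_apply, Perm.mul_apply, show (c, ζ y) = pc ρ ζ (c, y) by simp [e3], ia, k3]
        simp [e3]⟩) with h1 | h1
  · by_cases hp : p ∈ sl Y a b
    · rw [h p hp]
    obtain ⟨k, k1, k2, k3⟩ := mv p hp
    obtain ⟨l, l1, l2, l3⟩ := mv (g p) fun hq => hp (g.injective (h _ hq) ▸ hq)
    exact (h1 _ _ ⟨l * g * k⁻¹, mul_mem (mul_mem l1 hg) (inv_mem k1), fun r hr => by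
      rw [Perm.mul_apply, Perm.mul_apply, iv k2 r hr, h r hr, l2 r hr], by
      rw [Perm.mul_apply, Perm.mul_apply, ← k3, ia, l3]⟩).symm
  refine (S.not_jc hab fun p hp q hq => ?_).elim
  obtain ⟨k, k1, k2, k3⟩ := mv p hp
  obtain ⟨l, l1, l2, l3⟩ := mv q hq
  obtain ⟨m, m1, m2, m3⟩ := h1 p.2 q.2
  exact ⟨l⁻¹ * m * k, mul_mem (mul_mem (inv_mem l1) m1) k1, fun r hr => by
    rw [Perm.mul_apply, Perm.mul_apply, k2 r hr, m2 r hr, iv l2 r hr], by
    rw [Perm.mul_apply, Perm.mul_apply, k3, m3, ← l3, ia]⟩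

end St

end Cfsg.Agent.PA
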